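import Mathlib
import Cfsg.Prelude.Def_Blocks
import Cfsg.Agent.Characters.Core
import Cfsg.Agent.OddOrderCharacters.PF9.CliffGen
import Cfsg.Agent.H693.RealD

/-!
# Real characters over real characters of a normal subgroup of odd index

* `exists_real_over` : over a real irreducible character of a normal subgroup of odd index lies a
  real irreducible character, with odd multiplicity.
* `exists_conj_invariant` : the constituents of the restriction to a normal subgroup of a character
  of degree prime to `p` are conjugate to `P`-invariant ones, `P` a Sylow `p`-subgroup.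
-/

set_option autoImplicit false

namespace Cfsg.Agent.H693.RealOver

open Cfsg Cfsg.Agent.Characters.Core Cfsg.Agent.H693.RealD
  Cfsg.Agent.OddOrderCharacters.PF9.CliffGen Cfsg.Agent.OddOrderCharacters.IndRes
  Cfsg.Agent.OddOrderCharacters.NormalInduced
open scoped ComplexConjugate

universe u

variable {G : Type u} [Group G]

/-- The index of the inertia group of a character of a normal subgroup of odd index is odd, and so
is the square norm of the induced character. -/
theorem norm_indFun_odd [Fintype G] (K : Subgroup G) [hK : K.Normal] (hodd : Odd K.index)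
    {θ : K → ℂ} (hθ : IsIrrCharacter K θ) :
    ∃ n : ℕ, Odd n ∧ classInner (indFun K θ) (indFun K θ) = n := by
  classical
  have := Fintype.ofFinite K
  have hKT : K ≤ inertia K θ := le_inertia (isIrr_isClassFunction hθ)
  refine ⟨K.relIndex (inertia K θ), ?_, ?_⟩
  · exact hodd.of_dvd_nat (Subgroup.relIndex_dvd_index_of_le hKT)
  · rw [classInner_indFun_self K hθ]
    have h1 : Nat.card {g : G // conjFn K θ g = θ} = Nat.card (inertia K θ) := rfl
    have h2 := Subgroup.relIndex_mul_relIndex ⊥ K (inertia K θ) bot_le hKT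
    rw [Subgroup.relIndex_bot_left, Subgroup.relIndex_bot_left] at h2
    rw [h1, ← h2, Nat.cast_mul, ← mul_assoc, inv_mul_cancel₀, one_mul]
    exact card_ne_zero_complex

/-- **Real characters over real characters.** -/
theorem exists_real_over [Fintype G] (K : Subgroup G) [hK : K.Normal] (hodd : Odd K.index)
    {θ : K → ℂ} (hθ : IsIrrCharacter K θ) (hr : ∀ k, (θ k).im = 0) :
    ∃ χ : G → ℂ, IsIrrCharacter G χ ∧ (∀ g, (χ g).im = 0) ∧
      ∃ m : ℕ, Odd m ∧ classInner (indFun K θ) χ = m := by
  classical
  have hfin := finite_irr (G := G)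
  have := Fintype.ofFinite (IrrCharacter G)
  have hf : IsCharacter G (indFun K θ) := isCharacter_indFun K (isIrr_isCharacter hθ)
  obtain ⟨m, hm⟩ := isCharacter_iff.1 hf
  have hmi : ∀ χ : IrrCharacter G, classInner (indFun K θ) (χ : G → ℂ) = m χ := by
    intro χ
    conv_lhs => rw [hm]
    exact classInner_sum_nsmul_irr m χ
  have hfreal : (fun g => conj (indFun K θ g)) = indFun K θ := by
    funext g
    rw [indFun_apply, map_mul, map_inv₀, Complex.conj_natCast, map_sum]
    congr 1
    refine Finset.sum_congr rfl fun x _ => ?_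
    by_cases hx : x⁻¹ * g * x ∈ K
    · rw [extendByZero_of_mem _ _ hx, Complex.conj_eq_iff_im]
      exact hr _
    · rw [extendByZero_of_notMem _ _ hx, map_zero]
  -- complex conjugation
  let c : IrrCharacter G → IrrCharacter G := fun χ => ⟨fun g => conj ((χ : G → ℂ) g), isIrr_conj χ.2⟩
  have hcc : ∀ χ, c (c χ) = χ := by
    intro χ
    apply Subtype.ext
    funext g
    simp [c]
  have hmc : ∀ χ, m (c χ) = m χ := by
    intro χ
    have h1 : classInner (indFun K θ) (c χ : G → ℂ) = conj (classInner (indFun K θ) (χ : G → ℂ)) := by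
      rw [classInner_def, classInner_def, map_mul, map_inv₀, Complex.conj_natCast, map_sum]
      congr 1
      refine Finset.sum_congr rfl fun g _ => ?_
      rw [map_mul, congrFun hfreal g]
    rw [hmi, hmi, Complex.conj_natCast] at h1
    exact_mod_cast h1
  obtain ⟨n, hn, hnn⟩ := norm_indFun_odd K hodd hθ
  have hsum : n = ∑ χ : IrrCharacter G, m χ ^ 2 := by
    have h1 : classInner (indFun K θ) (indFun K θ) = ((∑ χ : IrrCharacter G, m χ ^ 2 : ℕ) : ℂ) := by
      conv_lhs => rw [hm]
      rw [classInner_sum_left]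
      push_cast
      refine Finset.sum_congr rfl fun χ _ => ?_
      rw [← hm]
      have h2 : classInner (m χ • (χ : G → ℂ)) (indFun K θ) = (m χ : ℂ) * m χ := by
        have h3 : (m χ • (χ : G → ℂ)) = ((m χ : ℂ) • (χ : G → ℂ)) := by
          funext g; simp
        rw [h3, classInner_smul_left, ← classInner_conj_symm, hmi, Complex.conj_natCast]
      rw [h2, pow_two]
    rw [hnn] at h1
    exact_mod_cast h1
  by_contra hcon
  push Not at hcon
  have hz : ∑ χ : IrrCharacter G, ((m χ : ZMod 2)) ^ 2 = 0 := by
    refine Finset.sum_involution (fun χ _ => c χ) ?_ ?_ (fun _ _ => Finset.mem_univ _) ?_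
    · intro χ _
      rw [hmc]
      exact CharTwo.add_self_eq_zero _
    · intro χ _ h0 hcχ
      have hmodd : Odd (m χ) := by
        by_contra he
        apply h0
        rw [Nat.not_odd_iff_even] at he
        have : ((m χ : ℕ) : ZMod 2) = 0 := (ZMod.natCast_eq_zero_iff_even).2 he
        rw [this]; simp
      refine hcon χ χ.2 ?_ (m χ) hmodd (hmi χ)
      intro g
      rw [← Complex.conj_eq_iff_im]
      exact congrFun (congrArg Subtype.val hcχ) g
    · intro χ _
      exact hcc χ
  have h3 : ((n : ℕ) : ZMod 2) = 0 := by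
    rw [hsum]
    push_cast
    exact hz
  rw [ZMod.natCast_eq_zero_iff_even] at h3
  exact (Nat.not_even_iff_odd.2 hn) h3

/-- The same in terms of the restriction. -/
theorem exists_real_over' [Fintype G] (K : Subgroup G) [hK : K.Normal] [Fintype K]
    (hodd : Odd K.index)
    {θ : K → ℂ} (hθ : IsIrrCharacter K θ) (hr : ∀ k, (θ k).im = 0) :
    ∃ χ : G → ℂ, IsIrrCharacter G χ ∧ (∀ g, (χ g).im = 0) ∧ classInner (res K χ) θ ≠ 0 := by
  classical
  obtain ⟨χ, hχ, hχr, m, hm, hmm⟩ := exists_real_over K hodd hθ hr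
  refine ⟨χ, hχ, hχr, ?_⟩
  have h1 := classInner_indFun_left K θ (isIrr_isClassFunction hχ)
  have h2 : classInner θ (res K χ) = m := by
    rw [← hmm, h1]
  rw [← classInner_conj_symm, h2, Complex.conj_natCast]
  have : m ≠ 0 := by
    rintro rfl
    exact absurd hm (by decide)
  exact_mod_cast this

/-- The degree of a character over `θ` is a multiple of the index of the inertia group. -/
theorem index_dvd_degree [Fintype G] (K : Subgroup G) [hK : K.Normal] [Fintype K] {θ : K → ℂ}
    (hθ : IsIrrCharacter K θ) {χ : G → ℂ} (hχ : IsIrrCharacter G χ)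
    (h0 : classInner (res K χ) θ ≠ 0) : (inertia K θ).index ∣ charDegree χ := by
  classical
  have := Fintype.ofFinite (inertia K θ)
  have hKT : K ≤ inertia K θ := le_inertia (isIrr_isClassFunction hθ)
  obtain ⟨ψ, hψ, -, hψχ⟩ := exists_ind hθ (fun g => mem_inertia) hKT hχ h0
  obtain ⟨d, -, hd⟩ := isIrr_apply_one hψ
  have h1 : χ 1 = (((inertia K θ).index * d : ℕ) : ℂ) := by
    rw [hψχ, indFun_apply_one, hd]
    push_cast
    rfl
  rw [charDegree_of_natCast h1]
  exact dvd_mul_right _ _

/-- Constituents of the restriction to a normal subgroup of a character of degree prime to `p` are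
conjugate to `P`-invariant ones. -/
theorem exists_conj_invariant [Fintype G] {p : ℕ} [hp : Fact p.Prime] {P : Subgroup G}
    (hP : IsPGroup p P) (K : Subgroup G) [hK : K.Normal] [Fintype K] {θ : K → ℂ}
    (hθ : IsIrrCharacter K θ) {χ : G → ℂ} (hχ : IsIrrCharacter G χ)
    (h0 : classInner (res K χ) θ ≠ 0) (hd : ¬ p ∣ charDegree χ) :
    ∃ g : G, ∀ x ∈ P, conjFn K (conjFn K θ g) x = conjFn K θ g := by
  classical
  have h1 : ¬ p ∣ (inertia K θ).index := fun h => hd (h.trans (index_dvd_degree K hθ hχ h0))
  have h2 : ¬ p ∣ Nat.card (G ⧸ inertia K θ) := h1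
  obtain ⟨q, hq⟩ := hP.nonempty_fixed_point_of_prime_not_dvd_card (G ⧸ inertia K θ) h2
  obtain ⟨g, rfl⟩ := QuotientGroup.mk_surjective q
  refine ⟨g⁻¹, fun x hx => ?_⟩
  have h3 := hq ⟨x, hx⟩
  have h4 : ((x * g : G) : G ⧸ inertia K θ) = (g : G ⧸ inertia K θ) := h3
  rw [eq_comm, QuotientGroup.eq] at h4
  have h5 : conjFn K θ (g⁻¹ * (x * g)) = θ := h4
  rw [← conjFn_mul]
  have h6 : g⁻¹ * x = (g⁻¹ * (x * g)) * g⁻¹ := by group
  rw [h6, conjFn_mul, h5]

end Cfsg.Agent.H693.RealOver
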