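import Mathlib
import Cfsg.Prelude.Def_Blocks
import Cfsg.Agent.Characters.Core
import Cfsg.Agent.Characters.Linear
import Cfsg.Agent.Characters.Ito
import Cfsg.Agent.Blocks.Deflate
import Cfsg.Agent.Blocks.ReynoldsAux
import Cfsg.Agent.OddOrderCharacters.PF9.CliffGen
import Cfsg.Agent.H693.RealD

/-!
# Kernels of irreducible characters of degree prime to `p`; real characters over a
# complemented elementary abelian normal `2`-subgroup
-/

set_option autoImplicit false

namespace Cfsg.Agent.H693.RealE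

open Cfsg Cfsg.Agent.Characters.Core Cfsg.Agent.H693.RealD
open scoped ComplexConjugate commutatorElement

variable {G : Type*} [Group G]

/-- Let `B` be a subgroup whose irreducible characters of degree prime to `p` are linear. Then a
normal subgroup of `G` inside `[B, B]` lies in the kernel of every irreducible character of `G` of
degree prime to `p`. -/
theorem ker_of_not_dvd' [Finite G] {p : ℕ} {χ : G → ℂ} (hχ : IsIrrCharacter G χ)
    (hd : ¬ p ∣ charDegree χ) (B : Subgroup G)
    (hB : ∀ ψ : B → ℂ, IsIrrCharacter B ψ → ¬ p ∣ charDegree ψ → ψ 1 = 1)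
    (M : Subgroup G) [M.Normal] (hMB : M ≤ ⁅B, B⁆) : ∀ n ∈ M, χ n = χ 1 := by
  classical
  have := Fintype.ofFinite G
  have := Fintype.ofFinite M
  have hfin := finite_irr (G := B)
  have := Fintype.ofFinite (IrrCharacter B)
  have hMB' : M ≤ B := hMB.trans (Subgroup.commutator_le_self _)
  have hres : IsCharacter B (fun x : B => χ x) :=
    isCharacter_comp B.subtype (isIrr_isCharacter hχ)
  obtain ⟨m, hm⟩ := isCharacter_iff.1 hres
  have hsum : ∑ n : M, χ n ≠ 0 := by
    intro h0
    apply hd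
    have key : ∀ ψ : IrrCharacter B, m ψ ≠ 0 → p ∣ charDegree (ψ : B → ℂ) := by
      intro ψ hψ
      by_contra hnd
      have h1 := Cfsg.Agent.Blocks.ReynoldsAux.sum_constituent_eq_zero
        (Subgroup.inclusion hMB') m hm h0 ψ hψ
      obtain ⟨f, hf⟩ := Cfsg.Agent.Characters.Linear.exists_hom_of_isIrrCharacter ψ.2
        (hB ψ ψ.2 hnd)
      have h2 : ∀ x : M, (ψ : B → ℂ) (Subgroup.inclusion hMB' x) = 1 := by
        intro x
        have hx : f (Subgroup.inclusion hMB' x) = 1 := by
          have h3 : (Subgroup.inclusion hMB' x) ∈ commutator B := by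
            have h4 : (commutator B).map B.subtype = ⁅B, B⁆ := by
              rw [commutator_def, Subgroup.map_commutator, ← MonoidHom.range_eq_map,
                Subgroup.range_subtype]
            have h5 : (x : G) ∈ (commutator B).map B.subtype := by
              rw [h4]; exact hMB x.2
            obtain ⟨y, hy, hy'⟩ := h5
            have h6 : y = Subgroup.inclusion hMB' x := Subtype.ext hy'
            rwa [← h6]
          exact Abelianization.commutator_subset_ker f h3
        rw [hf]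
        simp only [hx, Units.val_one]
      rw [Finset.sum_congr rfl fun x _ => h2 x, Finset.sum_const, nsmul_eq_mul, mul_one] at h1
      have h3 : (Finset.univ : Finset M).card = 0 := by exact_mod_cast h1
      rw [Finset.card_univ] at h3
      exact Fintype.card_ne_zero h3
    choose! n hn using key
    have h1 : χ 1 = ((p * ∑ ψ : IrrCharacter B, m ψ * n ψ : ℕ) : ℂ) := by
      have h2 := congrFun hm 1
      simp only [Finset.sum_apply, Pi.smul_apply] at h2
      have h3 : χ ((1 : B) : G) = χ 1 := rfl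
      rw [← h3, h2, Finset.mul_sum]
      push_cast
      refine Finset.sum_congr rfl fun ψ _ => ?_
      rcases eq_or_ne (m ψ) 0 with h0 | h0
      · simp [h0]
      · rw [charDegree_eq (isIrr_isCharacter ψ.2), hn ψ h0, nsmul_eq_mul]
        push_cast
        ring
    rw [charDegree_of_natCast h1]
    exact ⟨_, rfl⟩
  obtain ⟨χ', hχ'⟩ := Cfsg.Agent.Blocks.Deflate.exists_deflation M χ hχ hsum
  intro n hn
  rw [hχ']
  simp only [Function.comp]
  rw [(QuotientGroup.eq_one_iff n).2 hn, QuotientGroup.mk_one]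

/-- Claim D. `N` an abelian normal subgroup of `G` with `N ≤ [N, P]`, `P` a `p`-subgroup:
irreducible characters of degree prime to `p` are trivial on `N`. -/
theorem ker_of_abelian [Finite G] {p : ℕ} [hp : Fact p.Prime] {χ : G → ℂ} (hχ : IsIrrCharacter G χ)
    (hd : ¬ p ∣ charDegree χ) {P : Subgroup G} (hP : IsPGroup p P) (N : Subgroup G) [hN : N.Normal]
    (hab : ∀ a ∈ N, ∀ b ∈ N, a * b = b * a) (hNP : N ≤ ⁅N, P⁆) : ∀ n ∈ N, χ n = χ 1 := by
  classical
  apply ker_of_not_dvd' hχ hd (P ⊔ N) _ N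
    (hNP.trans (Subgroup.commutator_mono le_sup_right le_sup_left))
  intro ψ hψ hnd
  -- the degree divides `|P ⊔ N : N|`
  obtain ⟨n, ρ, hρ, rfl⟩ := hψ
  have hN' : (N.subgroupOf (P ⊔ N)).Normal := hN.subgroupOf _
  have h1 := Cfsg.Agent.Characters.Ito.finrank_dvd_index ρ (N.subgroupOf (P ⊔ N)) (by
    rintro a ha b hb
    exact Subtype.ext (hab a ha b hb))
  have h2 : (N.subgroupOf (P ⊔ N)).index = N.relIndex P := by
    show N.relIndex (P ⊔ N) = N.relIndex P
    rw [Subgroup.relIndex_sup_right]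
  have h3 : ρ.character 1 = ((Module.finrank ℂ (Fin n → ℂ) : ℕ) : ℂ) := Representation.char_one ρ
  rw [charDegree_of_natCast h3] at hnd
  obtain ⟨k, hk⟩ := IsPGroup.iff_card.1 hP
  have h4 : Module.finrank ℂ (Fin n → ℂ) ∣ p ^ k := by
    rw [← hk]
    rw [h2] at h1
    exact h1.trans (Subgroup.relIndex_dvd_card _ _)
  rw [Nat.dvd_prime_pow hp.out] at h4
  obtain ⟨j, -, hj⟩ := h4
  rcases Nat.eq_zero_or_pos j with hj0 | hj0
  · rw [h3, hj, hj0]; simp
  · exfalso
    apply hnd
    rw [hj]
    exact dvd_pow_self p hj0.ne'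

/-- A nontrivial element of an abelian subgroup is separated from `1` by a homomorphism. -/
theorem exists_hom_ne_one [Finite G] (N : Subgroup G) (hab : ∀ a ∈ N, ∀ b ∈ N, a * b = b * a)
    {n : N} (hn : n ≠ 1) : ∃ f : N →* ℂˣ, f n ≠ 1 := by
  let _ : CommGroup N :=
    { (inferInstance : Group N) with
      mul_comm := fun a b => Subtype.ext (hab a a.2 b b.2) }
  have : NeZero ((Monoid.exponent N : ℕ) : ℂ) := ⟨by
    exact_mod_cast Monoid.exponent_ne_zero_of_finite⟩
  exact CommGroup.exists_apply_ne_one_of_hasEnoughRootsOfUnity N ℂ hn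

open Cfsg.Agent.OddOrderCharacters.PF9.CliffGen Cfsg.Agent.OddOrderCharacters.IndRes
  Cfsg.Agent.OddOrderCharacters.NormalInduced in
/-- Lemma E. A nontrivial normal elementary abelian `2`-subgroup with a complement does not lie in
the kernel of all real irreducible characters. -/
theorem exists_real_of_complement {G : Type*} [Group G] [Finite G] (N H : Subgroup G)
    [hN : N.Normal]
    (hab : ∀ a ∈ N, ∀ b ∈ N, a * b = b * a) (h2 : ∀ a ∈ N, a ^ 2 = 1) (hN1 : N ≠ ⊥)
    (hNH : N ⊓ H = ⊥) (hNH' : N ⊔ H = ⊤) :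
    ∃ χ : IrrCharacter G, (∀ g, ((χ : G → ℂ) g).im = 0) ∧
      ∃ n ∈ N, (χ : G → ℂ) n ≠ (χ : G → ℂ) 1 := by
  classical
  have := Fintype.ofFinite G
  obtain ⟨n₀, hn₀⟩ : ∃ n : N, n ≠ 1 := by
    by_contra hcon
    push Not at hcon
    apply hN1
    rw [eq_bot_iff]
    intro x hx
    exact Subgroup.mem_bot.2 (congrArg Subtype.val (hcon ⟨x, hx⟩))
  obtain ⟨lam, hlam⟩ := exists_hom_ne_one N hab hn₀
  have hlam2 : ∀ n : N, (lam n : ℂ) = 1 ∨ (lam n : ℂ) = -1 := by
    intro n
    have h3 : n ^ 2 = 1 := Subtype.ext (h2 n n.2)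
    have h4 : ((lam n : ℂˣ) : ℂ) ^ 2 = 1 := by
      rw [← Units.val_pow_eq_pow_val, ← map_pow, h3, map_one, Units.val_one]
    rw [pow_two] at h4; exact mul_self_eq_one_iff.1 h4
  let θ : N → ℂ := fun n => (lam n : ℂ)
  have hθ : IsIrrCharacter N θ := Characters.Linear.isIrrCharacter_hom lam
  let T := inertia N θ
  have := Fintype.ofFinite N
  have := Fintype.ofFinite T
  have hNT : N ≤ T := le_inertia (isIrr_isClassFunction hθ)
  have hT : ∀ g, g ∈ T ↔ conjFn N θ g = θ := fun g => Iff.rfl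
  obtain ⟨F, hF1, hF2⟩ := exists_extension (T := T) hNH hNH' hNT (lam := lam)
    (fun g hg => (hT g).1 hg) 1
  have hirr := irr_twist (lam := lam) (F := F) hT hNT hF1 (ψ := 1) isIrr_one (fun _ => rfl)
  -- `F` is real
  have hFreal : ∀ t : T, (F t : ℂ) = 1 ∨ (F t : ℂ) = -1 := by
    intro t
    have h1 : (t : G) ∈ N ⊔ H := hNH' ▸ Subgroup.mem_top _
    obtain ⟨a, ha, b, hb, hab'⟩ := Subgroup.mem_sup_of_normal_left.1 h1
    have hbT : b ∈ T := by
      have : b = a⁻¹ * t := by rw [← hab']; group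
      rw [this]
      exact T.mul_mem (T.inv_mem (hNT ha)) t.2
    have h3 : t = ⟨a, hNT ha⟩ * ⟨b, hbT⟩ := Subtype.ext hab'.symm
    rw [h3, map_mul, hF1 ⟨a, ha⟩, hF2 ⟨b, hbT, hb⟩]
    simpa using hlam2 ⟨a, ha⟩
  set χ : G → ℂ := indFun T (fun t => (F t : ℂ) * (1 : T → ℂ) t) with hχdef
  have hχreal : ∀ g, (χ g).im = 0 := by
    intro g
    rw [hχdef, indFun_apply, ← Complex.conj_eq_iff_im, map_mul, map_inv₀, Complex.conj_natCast,
      map_sum]
    congr 1
    refine Finset.sum_congr rfl fun x _ => ?_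
    by_cases hx : x⁻¹ * g * x ∈ T
    · rw [extendByZero_of_mem _ _ hx]
      simp only [Pi.one_apply, mul_one]
      rcases hFreal ⟨x⁻¹ * g * x, hx⟩ with h | h <;> rw [h] <;> simp
    · rw [extendByZero_of_notMem _ _ hx, map_zero]
  refine ⟨⟨χ, hirr⟩, hχreal, ?_⟩
  by_contra hcon
  push Not at hcon
  apply hlam
  -- `F` is a constituent of the restriction of `χ` to `T`
  have hFirr : IsIrrCharacter T (fun t => (F t : ℂ) * (1 : T → ℂ) t) := by
    have : (fun t => (F t : ℂ) * (1 : T → ℂ) t) = fun t : T => (F t : ℂ) := by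
      funext t; simp
    rw [this]
    exact Characters.Linear.isIrrCharacter_hom F
  have h3 : classInner (res T χ) (fun t => (F t : ℂ) * (1 : T → ℂ) t) ≠ 0 := by
    have h4 := classInner_indFun_left T (fun t => (F t : ℂ) * (1 : T → ℂ) t)
      (isIrr_isClassFunction hirr)
    rw [classInner_irr_self hirr] at h4
    rw [← classInner_conj_symm, hχdef, ← h4]
    simp
  have h5 := constituent_ker (isCharacter_res T (isIrr_isCharacter hirr)) hFirr h3
    (y := ⟨n₀, hNT n₀.2⟩) (hcon n₀ n₀.2)
  simp only [Pi.one_apply, mul_one, map_one, Units.val_one] at h5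
  rw [hF1 n₀] at h5
  exact Units.ext h5

end Cfsg.Agent.H693.RealE
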