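import Mathlib
import Cfsg.Prelude.Def_Blocks
import Cfsg.Agent.PLocal.ZJ
import Cfsg.Agent.H693.RealE
import Cfsg.Agent.H693.GenBasic

/-!
# Real characters of degree prime to `p` and normal Sylow subgroups (Isaacs–Navarro)

`main` : `G` finite, the subgroup generated by the `p`-elements solvable, all real irreducible
characters of degree prime to `p`, `K` the subgroup generated by the `2`-elements, `U` normal in `G`
with `K ≤ U` and `|U : K|` a power of `p`.  Then `P ∩ U` is normal in `G` for every Sylow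
`p`-subgroup `P` of `G`.
-/

set_option autoImplicit false

namespace Cfsg.Agent.H693.ThmA

open Cfsg Cfsg.Agent.Characters.Core Cfsg.Agent.H693.RealC Cfsg.Agent.H693.RealD
  Cfsg.Agent.H693.RealE Cfsg.Agent.H693.GenBasic
open scoped ComplexConjugate commutatorElement

universe u

/-- The hypothesis: real irreducible characters have degree prime to `p`. -/
def RealPrime (p : ℕ) (G : Type u) [Group G] : Prop :=
  ∀ χ : IrrCharacter G, (∀ g, ((χ : G → ℂ) g).im = 0) → ¬ p ∣ charDegree (χ : G → ℂ)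

theorem RealPrime.map {p : ℕ} {G : Type u} {H : Type u} [Group G] [Group H] (h : RealPrime p G)
    {f : G →* H} (hf : Function.Surjective f) : RealPrime p H := by
  intro χ hχ hd
  apply h ⟨(χ : H → ℂ) ∘ f, isIrr_comp f hf χ.2⟩ (fun g => hχ (f g))
  have : charDegree ((χ : H → ℂ) ∘ f) = charDegree (χ : H → ℂ) := by
    unfold charDegree
    rw [Function.comp, map_one]
  rw [this]
  exact hd

section

variable {G : Type u} [Group G]

/-- Modular law for a normal subgroup. -/
theorem sup_inf_eq (P N U : Subgroup G) [N.Normal] (hN : N ≤ U) : (P ⊔ N) ⊓ U = (P ⊓ U) ⊔ N := by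
  apply le_antisymm
  · rintro x ⟨hx1, hx2⟩
    obtain ⟨a, ha, b, hb, rfl⟩ := Subgroup.mem_sup_of_normal_right.1 hx1
    exact Subgroup.mul_mem_sup ⟨ha, by simpa using U.mul_mem hx2 (U.inv_mem (hN hb))⟩ hb
  · exact sup_le (inf_le_inf_right U le_sup_left) (le_inf le_sup_right hN)

/-- The Frattini argument in the form used below. -/
theorem frattini [Finite G] {p : ℕ} [Fact p.Prime] (P : Sylow p G) (N K : Subgroup G)
    [hN : N.Normal] (hE : (((P : Subgroup G) ⊓ K) ⊔ N).Normal) (hNK : N ≤ K) :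
    N ⊔ Subgroup.normalizer (((P : Subgroup G) ⊓ K : Subgroup G) : Set G) = ⊤ := by
  have hpg : IsPGroup p ((P : Subgroup G) ⊓ K : Subgroup G) := P.isPGroup'.to_le inf_le_left
  have h1 : N.relIndex (((P : Subgroup G) ⊓ K) ⊔ N) = N.relIndex ((P : Subgroup G) ⊓ K) :=
    Subgroup.relIndex_sup_right _ _
  obtain ⟨k, hk⟩ := IsPGroup.iff_card.1 hpg
  have h2 : N.relIndex ((P : Subgroup G) ⊓ K) ∣ p ^ k := by
    rw [← hk]; exact Subgroup.relIndex_dvd_card _ _
  obtain ⟨j, -, hj⟩ := (Nat.dvd_prime_pow (Fact.out : p.Prime)).1 h2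
  rw [← h1] at hj
  have h3 := Cfsg.Agent.PLocal.ZJ.frattini_sup P N _ hE hj
  have h4 : (((P : Subgroup G) ⊓ K) ⊔ N) ⊓ (P : Subgroup G) = (P : Subgroup G) ⊓ K := by
    apply le_antisymm
    · rintro x ⟨hx1, hx2⟩
      exact ⟨hx2, (sup_le inf_le_right hNK) hx1⟩
    · exact le_inf le_sup_left inf_le_left
  rwa [h4] at h3

/-- If `N` normalizes `P ∩ K` and `(P ∩ K) N` is normal then `P ∩ K` is normal. -/
theorem normal_of_le_normalizer [Finite G] {p : ℕ} [Fact p.Prime] (P : Sylow p G)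
    (N K : Subgroup G) [hN : N.Normal] (hE : (((P : Subgroup G) ⊓ K) ⊔ N).Normal) (hNK : N ≤ K)
    (h : N ≤ Subgroup.normalizer (((P : Subgroup G) ⊓ K : Subgroup G) : Set G)) :
    ((P : Subgroup G) ⊓ K).Normal := by
  have h1 := frattini P N K hE hNK
  rw [sup_eq_right.2 h] at h1
  exact Subgroup.normalizer_eq_top_iff.1 h1

/-- Reduction modulo a normal subgroup. -/
theorem quot_step [Finite G] {p : ℕ} [Fact p.Prime] (P : Sylow p G) (N U : Subgroup G)
    [hN : N.Normal] (hNU : N ≤ U)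
    (h : (((P.mapSurjective (QuotientGroup.mk'_surjective N) : Sylow p (G ⧸ N)) :
      Subgroup (G ⧸ N)) ⊓ U.map (QuotientGroup.mk' N)).Normal) :
    (((P : Subgroup G) ⊓ U) ⊔ N).Normal := by
  have h1 := h.comap (QuotientGroup.mk' N)
  have h2 : ((((P.mapSurjective (QuotientGroup.mk'_surjective N) : Sylow p (G ⧸ N)) :
      Subgroup (G ⧸ N)) ⊓ U.map (QuotientGroup.mk' N)).comap (QuotientGroup.mk' N)) =
      ((P : Subgroup G) ⊓ U) ⊔ N := by
    rw [Subgroup.comap_inf, Sylow.coe_mapSurjective, Subgroup.comap_map_eq, Subgroup.comap_map_eq,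
      QuotientGroup.ker_mk', sup_eq_left.2 hNU, sup_inf_eq _ _ _ hNU]
  rwa [h2] at h1

theorem centralizer_le_normalizer (P : Subgroup G) :
    Subgroup.centralizer (P : Set G) ≤ Subgroup.normalizer (P : Set G) := by
  intro x hx
  rw [Subgroup.mem_normalizer_iff]
  rw [Subgroup.mem_centralizer_iff] at hx
  intro y
  constructor
  · intro hy
    have : x * y * x⁻¹ = y := by rw [← hx y hy]; group
    rwa [this]
  · intro hy
    have h1 := hx _ hy
    have : y = x * y * x⁻¹ := by
      have h2 : y * x = x * y := by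
        have h3 : x⁻¹ * (x * y * x⁻¹ * x) * 1 = x⁻¹ * (x * (x * y * x⁻¹)) * 1 := by rw [h1]
        simpa [mul_assoc] using congrArg (fun z => z * x) (show y = x * y * x⁻¹ by
          simpa [mul_assoc] using h3)
      rw [← h2]; group
    rwa [this]

/-- A minimal normal subgroup which is solvable is elementary abelian. -/
theorem minimal_abelian [Finite G] (N : Subgroup G) [hN : N.Normal] (hN1 : N ≠ ⊥)
    (hmin : ∀ M : Subgroup G, M.Normal → M ≤ N → M = ⊥ ∨ M = N) (hs : Group.IsSolvable N) :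
    (∀ a ∈ N, ∀ b ∈ N, a * b = b * a) ∧ ∃ r : ℕ, r.Prime ∧ ∀ a ∈ N, a ^ r = 1 := by
  have hD : (⁅N, N⁆).Normal := Subgroup.commutator_normal N N
  have hDle : ⁅N, N⁆ ≤ N := Subgroup.commutator_le_self N
  have hD0 : ⁅N, N⁆ = ⊥ := by
    rcases hmin _ hD hDle with h | h
    · exact h
    · exfalso
      have : Nontrivial N := (Subgroup.nontrivial_iff_ne_bot N).2 hN1
      have h1 := Group.IsSolvable.commutator_lt_top_of_nontrivial N
      have h2 : commutator N = ⊤ := by
        apply Subgroup.map_injective N.subtype_injective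
        rw [commutator_def, Subgroup.map_commutator, ← MonoidHom.range_eq_map,
          Subgroup.range_subtype, h]
      exact h1.ne h2
  have hab : ∀ a ∈ N, ∀ b ∈ N, a * b = b * a := by
    intro a ha b hb
    have h1 : ⁅a, b⁆ ∈ ⁅N, N⁆ := Subgroup.commutator_mem_commutator ha hb
    rw [hD0, Subgroup.mem_bot] at h1
    exact commutatorElement_eq_one_iff_mul_comm.1 h1
  refine ⟨hab, ?_⟩
  have hc1 : Nat.card N ≠ 1 := fun h => hN1 (Subgroup.card_eq_one.1 h)
  obtain ⟨r, hr, hrd⟩ := Nat.exists_prime_and_dvd hc1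
  refine ⟨r, hr, ?_⟩
  have := Fact.mk hr
  obtain ⟨x, hx⟩ := exists_prime_orderOf_dvd_card' (G := N) r hrd
  let M : Subgroup G :=
    { carrier := {a | a ∈ N ∧ a ^ r = 1}
      one_mem' := ⟨N.one_mem, one_pow r⟩
      mul_mem' := by
        rintro a b ⟨ha, ha'⟩ ⟨hb, hb'⟩
        refine ⟨N.mul_mem ha hb, ?_⟩
        have hc : Commute a b := hab a ha b hb
        rw [hc.mul_pow, ha', hb', one_mul]
      inv_mem' := by
        rintro a ⟨ha, ha'⟩
        exact ⟨N.inv_mem ha, by rw [inv_pow, ha', inv_one]⟩ }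
  have hMn : M.Normal := by
    refine ⟨fun a ha g => ⟨hN.conj_mem a ha.1 g, ?_⟩⟩
    rw [conj_pow, ha.2]; group
  rcases hmin M hMn (fun a ha => ha.1) with h | h
  · exfalso
    have h1 : (x : G) ∈ M := ⟨x.2, by
      rw [← hx]
      exact congrArg Subtype.val (pow_orderOf_eq_one x)⟩
    rw [h, Subgroup.mem_bot] at h1
    have h2 : x = 1 := Subtype.ext h1
    rw [h2, orderOf_one] at hx
    exact hr.one_lt.ne hx
  · intro a ha
    rw [← h] at ha
    exact ha.2

end

theorem main_aux (n : ℕ) : ∀ (G : Type u) [Group G] [Finite G], Nat.card G = n →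
    ∀ (p : ℕ) [Fact p.Prime], Group.IsSolvable (gen p G) → RealPrime p G →
    ∀ U : Subgroup G, U.Normal → gen 2 G ≤ U → (∃ a, (gen 2 G).relIndex U = p ^ a) →
    ∀ P : Sylow p G, ((P : Subgroup G) ⊓ U).Normal := by
  induction n using Nat.strong_induction_on with
  | _ n IH =>
  intro G _ _ hn p hp hsolv hreal U hU hKU hUp P
  set K := gen 2 G with hK
  have hKn : K.Normal := gen_normal Nat.prime_two
  have hLn : (gen p G).Normal := gen_normal hp.out
  set P0 : Subgroup G := (P : Subgroup G) ⊓ U with hP0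
  have hP0p : IsPGroup p P0 := P.isPGroup'.to_le inf_le_left
  -- reduction modulo a nontrivial normal subgroup contained in `K`
  have hquot : ∀ N : Subgroup G, N.Normal → N ≠ ⊥ → N ≤ K → (P0 ⊔ N).Normal := by
    intro N hN hN1 hNK
    apply quot_step P N U (hNK.trans hKU)
    have hsurj := QuotientGroup.mk'_surjective N
    have hlt : Nat.card (G ⧸ N) < n := by
      rw [← hn, Subgroup.card_eq_card_quotient_mul_card_subgroup N]
      have h1 : 1 < Nat.card N := by
        rw [Subgroup.one_lt_card_iff_ne_bot]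
        exact hN1
      have h2 : 0 < Nat.card (G ⧸ N) := Nat.card_pos
      nlinarith
    refine IH _ hlt (G ⧸ N) rfl p (isSolvable_gen hp.out hsurj hsolv) (hreal.map hsurj)
      (U.map (QuotientGroup.mk' N)) (hU.map _ hsurj) ?_ ?_ _
    · rw [← gen_map Nat.prime_two hsurj]
      exact Subgroup.map_mono hKU
    · obtain ⟨a, ha⟩ := hUp
      refine ⟨a, ?_⟩
      rw [← gen_map Nat.prime_two hsurj, Subgroup.relIndex_map_map, QuotientGroup.ker_mk',
        sup_eq_left.2 hNK, sup_eq_left.2 (hNK.trans hKU), ha]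
  -- a nontrivial normal `p`-subgroup in `K` finishes
  have hpcase : ∀ N : Subgroup G, N.Normal → N ≠ ⊥ → N ≤ K → IsPGroup p N → P0.Normal := by
    intro N hN hN1 hNK hNp
    have h1 := hquot N hN hN1 hNK
    have h2 : N ≤ P0 := by
      refine le_inf ?_ (hNK.trans hKU)
      obtain ⟨Q, hQ⟩ := hNp.exists_le_sylow
      obtain ⟨g, hg⟩ := MulAction.exists_smul_eq G Q P
      rw [← hg]
      intro x hx
      rw [Sylow.smul_def, Sylow.pointwise_smul_def, Subgroup.mem_pointwise_smul_iff_inv_smul_mem]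
      apply hQ
      have := hN.conj_mem x hx g⁻¹
      simpa [MulAut.smul_def] using this
    rwa [sup_eq_left.2 h2] at h1
  by_cases hK1 : K = ⊥
  · -- `U` is a `p`-group
    obtain ⟨a, ha⟩ := hUp
    rw [hK1, Subgroup.relIndex_bot_left] at ha
    have hUpg : IsPGroup p U := IsPGroup.of_card ha
    have h2 : U ≤ (P : Subgroup G) := by
      obtain ⟨Q, hQ⟩ := hUpg.exists_le_sylow
      obtain ⟨g, hg⟩ := MulAction.exists_smul_eq G Q P
      rw [← hg]
      intro x hx
      rw [Sylow.smul_def, Sylow.pointwise_smul_def, Subgroup.mem_pointwise_smul_iff_inv_smul_mem]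
      apply hQ
      have := hU.conj_mem x hx g⁻¹
      simpa [MulAut.smul_def] using this
    have : P0 = U := inf_eq_right.2 h2
    rw [this]
    exact hU
  -- a minimal normal subgroup `N` of `G` in `K`
  obtain ⟨N, ⟨hN, hN1, hNK⟩, hmin⟩ : ∃ N : Subgroup G, (N.Normal ∧ N ≠ ⊥ ∧ N ≤ K) ∧
      ∀ M : Subgroup G, (M.Normal ∧ M ≠ ⊥ ∧ M ≤ K) → M ≤ N → M = N := by
    obtain ⟨N, hN⟩ := Set.Finite.exists_minimal
      (s := {N : Subgroup G | N.Normal ∧ N ≠ ⊥ ∧ N ≤ K}) (Set.toFinite _) ⟨K, hKn, hK1, le_rfl⟩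
    refine ⟨N, hN.prop, fun M hM hMN => le_antisymm hMN (hN.le_of_le hM hMN)⟩
  have hmin' : ∀ M : Subgroup G, M.Normal → M ≤ N → M = ⊥ ∨ M = N := by
    intro M hM hMN
    by_cases h : M = ⊥
    · exact Or.inl h
    · exact Or.inr (hmin M ⟨hM, h, hMN.trans hNK⟩ hMN)
  have hNU : N ≤ U := hNK.trans hKU
  have hE := hquot N hN hN1 hNK
  by_cases hNp : IsPGroup p N
  · exact hpcase N hN hN1 hNK hNp
  -- it is enough that `N` normalizes `P0`
  by_contra hcon
  have hnot : ¬ N ≤ Subgroup.normalizer (P0 : Set G) := fun h =>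
    hcon (normal_of_le_normalizer P N U hE hNU h)
  have hnotc : ¬ N ≤ Subgroup.centralizer (P0 : Set G) := fun h =>
    hnot (h.trans (centralizer_le_normalizer P0))
  have hH : N ⊔ Subgroup.normalizer (P0 : Set G) = ⊤ := frattini P N U hE hNU
  -- `N` is solvable
  have hNL : N ≤ gen p G := by
    rcases hmin' (N ⊓ gen p G) inferInstance inf_le_left with h | h
    · exfalso
      apply hnotc
      have h1 : ⁅N, P0⁆ ≤ N ⊓ gen p G := by
        refine le_inf (Subgroup.commutator_le_left N P0) ?_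
        exact (Subgroup.commutator_mono le_rfl (le_gen hp.out hP0p)).trans
          (Subgroup.commutator_le_right N (gen p G))
      rw [h, le_bot_iff, Subgroup.commutator_eq_bot_iff_le_centralizer] at h1
      exact h1
    · exact inf_eq_left.1 h
  have hNs : Group.IsSolvable N := by
    have := Group.isSolvable_of_isSolvable_injective (f := Subgroup.inclusion hNL)
      (Subgroup.inclusion_injective hNL)
    exact this
  obtain ⟨hab, r, hr, hrN⟩ := minimal_abelian N hN1 hmin' hNs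
  have hrp : r ≠ p := by
    rintro rfl
    apply hNp
    intro x
    exact ⟨1, by rw [pow_one]; exact Subtype.ext (hrN x x.2)⟩
  -- `[N, P0] = N`
  have hnorm : ∀ M : Subgroup G, M ≤ N →
      (∀ h ∈ Subgroup.normalizer (P0 : Set G), ∀ m ∈ M, h * m * h⁻¹ ∈ M) → M.Normal := by
    intro M hMN hM
    refine ⟨fun m hm g => ?_⟩
    have hg : g ∈ N ⊔ Subgroup.normalizer (P0 : Set G) := hH ▸ Subgroup.mem_top g
    obtain ⟨a, ha, b, hb, rfl⟩ := Subgroup.mem_sup_of_normal_left.1 hg
    have h1 : a * b * m * (a * b)⁻¹ = a * (b * m * b⁻¹) * a⁻¹ := by group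
    have h2 := hM b hb m hm
    have h3 : a * (b * m * b⁻¹) * a⁻¹ = b * m * b⁻¹ := by
      rw [hab a ha _ (hMN h2)]; group
    rw [h1, h3]
    exact h2
  have hconjP : ∀ h ∈ Subgroup.normalizer (P0 : Set G), ∀ x ∈ P0, h * x * h⁻¹ ∈ P0 := by
    intro h hh x hx
    exact (Subgroup.mem_normalizer_iff.1 hh x).1 hx
  have hNP : N ≤ ⁅N, P0⁆ := by
    have h1 : (⁅N, P0⁆).Normal := by
      apply hnorm _ (Subgroup.commutator_le_left N P0)
      intro h hh m hm
      have h2 : (⁅N, P0⁆).map (MulAut.conj h).toMonoidHom ≤ ⁅N, P0⁆ := by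
        rw [Subgroup.map_commutator]
        apply Subgroup.commutator_mono
        · rintro _ ⟨x, hx, rfl⟩
          exact hN.conj_mem x hx h
        · rintro _ ⟨x, hx, rfl⟩
          exact hconjP h hh x hx
      exact h2 ⟨m, hm, rfl⟩
    rcases hmin' _ h1 (Subgroup.commutator_le_left N P0) with h | h
    · exfalso
      apply hnotc
      exact Subgroup.commutator_eq_bot_iff_le_centralizer.1 h
    · exact h.ge
  -- all real irreducible characters are trivial on `N`
  have hker : ∀ χ : IrrCharacter G, (∀ g, ((χ : G → ℂ) g).im = 0) →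
      ∀ n ∈ N, (χ : G → ℂ) n = (χ : G → ℂ) 1 := by
    intro χ hχ
    exact ker_of_abelian χ.2 (hreal χ hχ) hP0p N hab hNP
  -- `C_N(P0) = 1` and `N ∩ N_G(P0) = 1`
  have hC : N ⊓ Subgroup.centralizer (P0 : Set G) = ⊥ := by
    have h1 : (N ⊓ Subgroup.centralizer (P0 : Set G)).Normal := by
      apply hnorm _ inf_le_left
      rintro h hh m ⟨hm1, hm2⟩
      refine ⟨hN.conj_mem m hm1 h, Subgroup.mem_centralizer_iff.2 ?_⟩
      replace hm2 := Subgroup.mem_centralizer_iff.1 hm2
      intro x hx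
      have h2 : h⁻¹ * x * h ∈ P0 := by
        have := hconjP h⁻¹ (Subgroup.inv_mem _ hh) x hx
        simpa using this
      have h3 := hm2 _ h2
      calc x * (h * m * h⁻¹) = h * ((h⁻¹ * x * h) * m) * h⁻¹ := by group
        _ = h * (m * (h⁻¹ * x * h)) * h⁻¹ := by rw [h3]
        _ = h * m * h⁻¹ * x := by group
    rcases hmin' _ h1 inf_le_left with h | h
    · exact h
    · exact absurd (inf_eq_left.1 h) hnotc
  have hNPbot : N ⊓ P0 = ⊥ := by
    rw [eq_bot_iff]
    rintro x ⟨hx1, hx2⟩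
    obtain ⟨k, hk⟩ := hP0p ⟨x, hx2⟩
    have hk' : x ^ p ^ k = 1 := congrArg Subtype.val hk
    have h1 : orderOf x ∣ Nat.gcd r (p ^ k) :=
      Nat.dvd_gcd (orderOf_dvd_of_pow_eq_one (hrN x hx1)) (orderOf_dvd_of_pow_eq_one hk')
    have h2 : Nat.gcd r (p ^ k) = 1 :=
      Nat.Coprime.pow_right k ((Nat.coprime_primes hr hp.out).2 hrp)
    rw [h2, Nat.dvd_one, orderOf_eq_one_iff] at h1
    exact Subgroup.mem_bot.2 h1
  have hNH : N ⊓ Subgroup.normalizer (P0 : Set G) = ⊥ := by
    rw [eq_bot_iff, ← hC]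
    rintro x ⟨hx1, hx2⟩
    refine ⟨hx1, Subgroup.mem_centralizer_iff.2 ?_⟩
    intro y hy
    have h1 : x * y * x⁻¹ * y⁻¹ ∈ N ⊓ P0 := by
      refine ⟨?_, P0.mul_mem (hconjP x hx2 y hy) (P0.inv_mem hy)⟩
      have h2 : x * y * x⁻¹ * y⁻¹ = x * (y * x⁻¹ * y⁻¹) := by group
      rw [h2]
      exact N.mul_mem hx1 (hN.conj_mem _ (N.inv_mem hx1) y)
    rw [hNPbot, Subgroup.mem_bot] at h1
    have h3 : x * y = y * x := by
      have h4 := congrArg (fun z => z * y * x) h1
      simpa [mul_assoc] using h4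
    exact h3.symm
  by_cases hr2 : r = 2
  · subst hr2
    obtain ⟨χ, hχ, n, hn, hne⟩ := exists_real_of_complement N
      (Subgroup.normalizer (P0 : Set G)) hab hrN hN1 hNH hH
    exact hne (hker χ hχ n hn)
  -- now `r` is odd: `K` centralizes `N`
  have hrodd : Odd r := hr.odd_of_ne_two hr2
  have hNr : IsPGroup r N := fun x => ⟨1, by rw [pow_one]; exact Subtype.ext (hrN x x.2)⟩
  have hNodd : Odd (Nat.card N) := by
    have := Fact.mk hr
    obtain ⟨k, hk⟩ := IsPGroup.iff_card.1 hNr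
    rw [hk]
    exact hrodd.pow
  have hKN : K ≤ Subgroup.centralizer (N : Set G) := by
    rw [hK, gen_def, Subgroup.closure_le]
    rintro g ⟨k, hk⟩
    by_contra hg
    obtain ⟨m, hm, hm1, a, ha, -⟩ := exists_inverted (M := N)
      (by rw [← hk]; exact pow_orderOf_eq_one g) hg
    obtain ⟨χ, hχ, n, hnM, hne⟩ := exists_real_not_ker N hNodd hm hm1 (isConj_iff.2 ⟨a, ha⟩)
    exact hne (hker χ hχ n hnM)
  have hNcK : N ≤ Subgroup.centralizer (K : Set G) := by
    rw [← Subgroup.commutator_eq_bot_iff_le_centralizer, Subgroup.commutator_comm,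
      Subgroup.commutator_eq_bot_iff_le_centralizer]
    exact hKN
  -- `Q = P ∩ K` is normal in `G`, hence trivial
  have hPK : (P : Subgroup G) ⊓ K = P0 ⊓ K := by
    rw [hP0, inf_assoc, inf_eq_right.2 hKU]
  have hEK : (P0 ⊔ N) ⊓ K = ((P : Subgroup G) ⊓ K) ⊔ N := by
    rw [sup_inf_eq _ _ _ hNK, hPK]
  have hQN : (((P : Subgroup G) ⊓ K) ⊔ N).Normal := by
    rw [← hEK]
    infer_instance
  have hQ : ((P : Subgroup G) ⊓ K).Normal := by
    apply normal_of_le_normalizer P N K hQN hNK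
    refine le_trans ?_ (centralizer_le_normalizer _)
    exact hNcK.trans (Subgroup.centralizer_le inf_le_right)
  have hQ1 : (P : Subgroup G) ⊓ K = ⊥ := by
    by_contra h
    exact hcon (hpcase _ hQ h inf_le_right (P.isPGroup'.to_le inf_le_left))
  rw [hQ1, bot_sup_eq] at hEK
  -- `[K, P0] ≤ N`
  have hKP : ⁅K, P0⁆ ≤ N := by
    rw [← hEK]
    refine le_inf ?_ (Subgroup.commutator_le_left K P0)
    exact (Subgroup.commutator_mono le_rfl le_sup_left).trans
      (Subgroup.commutator_le_right K (P0 ⊔ N))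
  have h3 : ⁅⁅K, K⁆, P0⁆ = ⊥ := by
    apply Subgroup.commutator_commutator_eq_bot_of_rotate
    · rw [eq_bot_iff]
      refine (Subgroup.commutator_mono hKP le_rfl).trans ?_
      rw [le_bot_iff, Subgroup.commutator_eq_bot_iff_le_centralizer]
      exact hNcK
    · rw [Subgroup.commutator_comm P0 K, eq_bot_iff]
      refine (Subgroup.commutator_mono hKP le_rfl).trans ?_
      rw [le_bot_iff, Subgroup.commutator_eq_bot_iff_le_centralizer]
      exact hNcK
  rw [Subgroup.commutator_eq_bot_iff_le_centralizer] at h3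
  have h4 : N ⊓ ⁅K, K⁆ = ⊥ := by
    rw [eq_bot_iff, ← hC]
    exact inf_le_inf_left N h3
  apply hN1
  rw [eq_bot_iff]
  intro x hx
  obtain ⟨k, hk⟩ := exists_pow_mem_commutator Nat.prime_two (hNK hx)
  have h5 : x ^ 2 ^ k ∈ N ⊓ ⁅K, K⁆ := ⟨N.pow_mem hx _, hk⟩
  rw [h4, Subgroup.mem_bot] at h5
  have h6 : orderOf x ∣ Nat.gcd r (2 ^ k) :=
    Nat.dvd_gcd (orderOf_dvd_of_pow_eq_one (hrN x hx)) (orderOf_dvd_of_pow_eq_one h5)
  have h7 : Nat.gcd r (2 ^ k) = 1 :=
    Nat.Coprime.pow_right k ((Nat.coprime_primes hr Nat.prime_two).2 hr2)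
  rw [h7, Nat.dvd_one, orderOf_eq_one_iff] at h6
  exact Subgroup.mem_bot.2 h6

/-- **Isaacs–Navarro.** See the module docstring. -/
theorem main {G : Type u} [Group G] [Finite G] {p : ℕ} [Fact p.Prime]
    (hsolv : Group.IsSolvable (gen p G)) (hreal : RealPrime p G) {U : Subgroup G} (hU : U.Normal)
    (hKU : gen 2 G ≤ U) (hUp : ∃ a, (gen 2 G).relIndex U = p ^ a) (P : Sylow p G) :
    ((P : Subgroup G) ⊓ U).Normal :=
  main_aux _ G rfl p hsolv hreal U hU hKU hUp P

/-- The Sylow subgroups of a subgroup `U` are normal when the intersections with `U` of the Sylow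
subgroups of `G` are. -/
theorem sylow_normal {G : Type u} [Group G] [Finite G] {p : ℕ} [Fact p.Prime] {U : Subgroup G}
    (h : ∀ P : Sylow p G, ((P : Subgroup G) ⊓ U).Normal) (Q : Sylow p U) :
    (Q : Subgroup U).Normal := by
  have h1 : IsPGroup p ((Q : Subgroup U).map U.subtype) := Q.isPGroup'.map U.subtype
  obtain ⟨P, hP⟩ := h1.exists_le_sylow
  have h2 : (Q : Subgroup U) ≤ (P : Subgroup G).subgroupOf U := by
    intro x hx
    exact Subgroup.mem_subgroupOf.2 (hP ⟨x, hx, rfl⟩)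
  have h3 : IsPGroup p ((P : Subgroup G).subgroupOf U) :=
    P.isPGroup'.comap_of_injective U.subtype U.subtype_injective
  have h4 : (P : Subgroup G).subgroupOf U = (Q : Subgroup U) := Q.is_maximal' h3 h2
  rw [← h4, ← Subgroup.inf_subgroupOf_right]
  exact (h P).subgroupOf U

end Cfsg.Agent.H693.ThmA
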