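import Mathlib
import Cfsg.Prelude.Def_Blocks
import Cfsg.Agent.S4444
import Cfsg.Agent.H692.RealAct
import Cfsg.Agent.H693.RealC
import Cfsg.Agent.H693.RealOver
import Cfsg.Agent.H693.ThmA

/-!
# Real classes meet the centralizer of a Sylow subgroup

`meet` : `K` a normal `p'`-subgroup of odd index of `G`, all real irreducible characters of `G` of
degree prime to `p`, `P` a Sylow `p`-subgroup: every real element of `G` in `K` is conjugate to an
element of `C_K(P)`.
-/

set_option autoImplicit false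

namespace Cfsg.Agent.H693.Meet

open Cfsg Cfsg.Agent.Characters.Core Cfsg.Agent.H693.RealD Cfsg.Agent.H693.RealC
  Cfsg.Agent.H693.RealOver Cfsg.Agent.H693.ThmA Cfsg.Agent.H692.RealAct
  Cfsg.Agent.Characters.Clifford
  Cfsg.Agent.OddOrderCharacters.PF9.CliffGen Cfsg.Agent.OddOrderCharacters.IndRes
  Cfsg.Agent.OddOrderCharacters.NormalInduced
open scoped ComplexConjugate

universe u

variable {G : Type u} [Group G]

/-- `2`-elements lie in normal subgroups of odd index. -/
theorem mem_of_odd_index [Finite G] {K : Subgroup G} [K.Normal] (hodd : Odd K.index) {b : G}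
    {k : ℕ} (hb : b ^ 2 ^ k = 1) : b ∈ K := by
  rw [← QuotientGroup.eq_one_iff, ← orderOf_eq_one_iff]
  have h1 : orderOf (b : G ⧸ K) ∣ 2 ^ k := by
    apply orderOf_dvd_of_pow_eq_one
    rw [← QuotientGroup.mk_pow, hb, QuotientGroup.mk_one]
  have h2 : orderOf (b : G ⧸ K) ∣ K.index := orderOf_dvd_natCard _
  have h3 : Nat.Coprime (2 ^ k) K.index :=
    Nat.Coprime.pow_left k (Nat.coprime_two_left.2 hodd)
  exact Nat.eq_one_of_dvd_coprimes h3 h1 h2

/-- A real element of `G` in a normal subgroup of odd index is real in the subgroup. -/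
theorem real_in [Finite G] {K : Subgroup G} [K.Normal] (hodd : Odd K.index) {x : K}
    (hx : IsConj (x : G) (x : G)⁻¹) : IsConj x x⁻¹ := by
  obtain ⟨c, hc⟩ := isConj_iff.1 hx
  obtain ⟨m, hm, k, hk⟩ := exists_odd_pow c
  have h1 := inverts_odd_pow hc hm
  refine isConj_iff.2 ⟨⟨c ^ m, mem_of_odd_index hodd hk⟩, ?_⟩
  exact Subtype.ext h1

/-- Real elements lie in normal subgroups of odd index. -/
theorem real_mem [Finite G] {K : Subgroup G} [K.Normal] (hodd : Odd K.index) {x : G}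
    (hx : IsConj x x⁻¹) : x ∈ K := by
  obtain ⟨c, hc⟩ := isConj_iff.1 hx
  obtain ⟨m, hm, k, hk⟩ := exists_odd_pow c
  have h1 := inverts_odd_pow hc hm
  have h2 : c ^ m ∈ K := mem_of_odd_index hodd hk
  have h3 : (x : G ⧸ K) = (x : G ⧸ K)⁻¹ := by
    have h4 := congrArg (QuotientGroup.mk : G → G ⧸ K) h1
    rw [QuotientGroup.mk_mul, QuotientGroup.mk_mul, (QuotientGroup.eq_one_iff _).2 h2,
      QuotientGroup.mk_inv, (QuotientGroup.eq_one_iff _).2 h2, one_mul, inv_one, mul_one,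
      QuotientGroup.mk_inv] at h4
    exact h4
  have h5 : (x : G ⧸ K) ^ 2 = 1 := by
    rw [pow_two]
    nth_rw 2 [h3]
    exact mul_inv_cancel _
  rw [← QuotientGroup.eq_one_iff, ← orderOf_eq_one_iff]
  have h6 : orderOf (x : G ⧸ K) ∣ 2 := orderOf_dvd_of_pow_eq_one h5
  have h7 : orderOf (x : G ⧸ K) ∣ K.index := orderOf_dvd_natCard _
  exact Nat.eq_one_of_dvd_coprimes (Nat.coprime_two_left.2 hodd) h6 h7

/-- Membership in the real irreducible characters. -/
theorem irrSmul_eq_conjFn {K : Subgroup G} [hK : K.Normal] (g : G) (θ : IrrCharacter K) :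
    ((irrSmul g θ : IrrCharacter K) : K → ℂ) = conjFn K (θ : K → ℂ) g⁻¹ := by
  funext k
  rw [irrSmul_apply, conjFn_apply]
  congr 1

section main

variable [Fintype G] {p : ℕ} [hp : Fact p.Prime] (P : Sylow p G) (K : Subgroup G) [hK : K.Normal]

/-- The centralizer of `P` in `K`, as a subgroup of the normalizer of `P`. -/
abbrev Cn : Subgroup (Subgroup.normalizer ((P : Subgroup G) : Set G)) :=
  (K ⊓ Subgroup.centralizer ((P : Subgroup G) : Set G)).subgroupOf _

omit [Fintype G] hp hK in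
theorem C_le_N : K ⊓ Subgroup.centralizer ((P : Subgroup G) : Set G) ≤
    Subgroup.normalizer ((P : Subgroup G) : Set G) :=
  inf_le_right.trans (centralizer_le_normalizer _)

omit [Fintype G] hp in
theorem conj_C {n : G} (hn : n ∈ Subgroup.normalizer ((P : Subgroup G) : Set G)) {c : G}
    (hc : c ∈ K ⊓ Subgroup.centralizer ((P : Subgroup G) : Set G)) :
    n * c * n⁻¹ ∈ K ⊓ Subgroup.centralizer ((P : Subgroup G) : Set G) := by
  refine ⟨hK.conj_mem c hc.1 n, Subgroup.mem_centralizer_iff.2 fun y hy => ?_⟩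
  have h1 : n⁻¹ * y * n ∈ (P : Subgroup G) := by
    have := (Subgroup.mem_normalizer_iff.1 (Subgroup.inv_mem _ hn) y).1 hy
    simpa using this
  have h2 := Subgroup.mem_centralizer_iff.1 hc.2 _ h1
  calc y * (n * c * n⁻¹) = n * ((n⁻¹ * y * n) * c) * n⁻¹ := by group
    _ = n * (c * (n⁻¹ * y * n)) * n⁻¹ := by rw [h2]
    _ = n * c * n⁻¹ * y := by group

instance Cn_normal : (Cn P K).Normal := by
  refine ⟨fun c hc n => ?_⟩
  exact conj_C P K n.2 hc

omit [Fintype G] hp in
/-- When `P ∩ K = 1`, the index of `C_K(P)` in `N(P)` divides the index of `K`. -/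
theorem Cn_index_dvd (hPK : (P : Subgroup G) ⊓ K = ⊥) : (Cn P K).index ∣ K.index := by
  have h1 : K ⊓ Subgroup.normalizer ((P : Subgroup G) : Set G) =
      K ⊓ Subgroup.centralizer ((P : Subgroup G) : Set G) := by
    apply le_antisymm
    · rintro x ⟨hx1, hx2⟩
      refine ⟨hx1, Subgroup.mem_centralizer_iff.2 fun y hy => ?_⟩
      have h2 : x * y * x⁻¹ * y⁻¹ ∈ (P : Subgroup G) ⊓ K := by
        refine ⟨(P : Subgroup G).mul_mem ((Subgroup.mem_normalizer_iff.1 hx2 y).1 hy)
          ((P : Subgroup G).inv_mem hy), ?_⟩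
        have h3 : x * y * x⁻¹ * y⁻¹ = x * (y * x⁻¹ * y⁻¹) := by group
        rw [h3]
        exact K.mul_mem hx1 (hK.conj_mem _ (K.inv_mem hx1) y)
      rw [hPK, Subgroup.mem_bot] at h2
      have h4 := congrArg (fun z => z * y * x) h2
      have h5 : x * y = y * x := by simpa [mul_assoc] using h4
      exact h5.symm
    · exact le_inf inf_le_left (C_le_N P K)
  have h2 : (Cn P K).index = K.relIndex (Subgroup.normalizer ((P : Subgroup G) : Set G)) := by
    show Subgroup.relIndex _ _ = _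
    rw [← h1, Subgroup.inf_relIndex_right]
  rw [h2]
  exact Subgroup.relIndex_dvd_index_of_normal _ _

/-- The isomorphism `Cn P K ≃ K ⊓ C(P)`. -/
noncomputable def eC : Cn P K ≃* (K ⊓ Subgroup.centralizer ((P : Subgroup G) : Set G) : Subgroup G) :=
  Subgroup.subgroupOfEquivOfLe (C_le_N P K)

/-- Restriction to `Cn P K`. -/
def resC (f : K → ℂ) : Cn P K → ℂ :=
  fun c => f ⟨(c : Subgroup.normalizer ((P : Subgroup G) : Set G)), (Subgroup.mem_subgroupOf.1 c.2).1⟩

/-- `P`-invariance. -/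
def PInv (θ : IrrCharacter K) : Prop := ∀ x ∈ (P : Subgroup G), irrSmul x θ = θ

variable {P K}

omit [Fintype G] hp in
theorem pinv_iff (θ : IrrCharacter K) : PInv P K θ ↔ ∀ s ∈ (P : Subgroup G), ∀ g g' : K,
    (g' : G) = s * g * s⁻¹ → (θ : K → ℂ) g' = (θ : K → ℂ) g := by
  constructor
  · intro h s hs g g' hgg
    have h1 := congrFun (congrArg Subtype.val (h s⁻¹ (Subgroup.inv_mem _ hs))) g
    rw [irrSmul_apply] at h1
    have h2 : (MulAut.conjNormal s⁻¹⁻¹ : MulAut K) g = g' := by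
      ext
      simp [hgg]
    rw [← h1, h2]
  · intro h x hx
    apply Subtype.ext
    funext k
    rw [irrSmul_apply]
    apply h x⁻¹ (Subgroup.inv_mem _ hx)
    simp

omit [Fintype G] hp in
theorem pinv_smul {θ : IrrCharacter K} (h : PInv P K θ)
    {n : G} (hn : n ∈ Subgroup.normalizer ((P : Subgroup G) : Set G)) :
    PInv P K (irrSmul n θ) := by
  intro x hx
  rw [← irrSmul_mul]
  have h1 : n⁻¹ * x * n ∈ (P : Subgroup G) := by
    have := (Subgroup.mem_normalizer_iff.1 (Subgroup.inv_mem _ hn) x).1 hx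
    simpa using this
  have h2 : x * n = n * (n⁻¹ * x * n) := by group
  rw [h2, irrSmul_mul, h _ h1]

omit [Fintype G] hp in
theorem resC_smul (θ : IrrCharacter K)
    (n : Subgroup.normalizer ((P : Subgroup G) : Set G)) :
    resC P K ((irrSmul (n : G) θ : IrrCharacter K) : K → ℂ) =
      resC P K (θ : K → ℂ) ∘ (MulAut.conjNormal n⁻¹ : MulAut (Cn P K)) := by
  funext c
  unfold resC
  rw [irrSmul_apply]
  congr 1

/-- The Glauberman correspondence, in terms of `Cn P K`. -/
theorem glaub (hKp : ¬ p ∣ Nat.card K) [Fintype (Cn P K)] :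
    (∀ θ : IrrCharacter K, PInv P K θ → ∃ β : IrrCharacter (Cn P K),
      (∃ m : ℕ, classInner (resC P K (θ : K → ℂ)) (β : Cn P K → ℂ) = m ∧ ¬ p ∣ m) ∧
      ∀ β' : IrrCharacter (Cn P K),
        (∃ m : ℕ, classInner (resC P K (θ : K → ℂ)) (β' : Cn P K → ℂ) = m ∧ ¬ p ∣ m) → β' = β) ∧
    (∀ θ θ' : IrrCharacter K, PInv P K θ → PInv P K θ' → ∀ β : IrrCharacter (Cn P K),
      (∃ m : ℕ, classInner (resC P K (θ : K → ℂ)) (β : Cn P K → ℂ) = m ∧ ¬ p ∣ m) →
      (∃ m : ℕ, classInner (resC P K (θ' : K → ℂ)) (β : Cn P K → ℂ) = m ∧ ¬ p ∣ m) → θ = θ') := by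
  classical
  have := Fintype.ofFinite K
  have := Fintype.ofFinite (K ⊓ Subgroup.centralizer ((P : Subgroup G) : Set G) : Subgroup G)
  have hcop : (Nat.card K).Coprime (Nat.card (P : Subgroup G)) := by
    obtain ⟨k, hk⟩ := IsPGroup.iff_card.1 P.isPGroup'
    rw [hk]
    exact Nat.Coprime.pow_right k ((Nat.Prime.coprime_iff_not_dvd hp.out).2 hKp).symm
  obtain ⟨h1, h2, h3, h4⟩ := Cfsg.Agent.S4444.result K (P : Subgroup G)
    (fun s _ g hg => hK.conj_mem g hg s) hcop p hp.out P.isPGroup'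
    (K ⊓ Subgroup.centralizer ((P : Subgroup G) : Set G)) rfl inf_le_left
  have htrans : ∀ (θ : IrrCharacter K)
      (β : IrrCharacter (K ⊓ Subgroup.centralizer ((P : Subgroup G) : Set G) : Subgroup G)),
      classInner (resC P K (θ : K → ℂ)) ((β : _ → ℂ) ∘ eC P K) =
      classInner (fun c : (K ⊓ Subgroup.centralizer ((P : Subgroup G) : Set G) : Subgroup G) =>
        (θ : K → ℂ) ⟨c, c.2.1⟩) (β : _ → ℂ) := by
    intro θ β
    rw [← classInner_comp_mulEquiv (eC P K)]
    rfl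
  have hirr : ∀ β : IrrCharacter (K ⊓ Subgroup.centralizer ((P : Subgroup G) : Set G) : Subgroup G),
      IsIrrCharacter (Cn P K) ((β : _ → ℂ) ∘ eC P K) := fun β =>
    isIrr_comp (eC P K).toMonoidHom (eC P K).surjective β.2
  have hirr' : ∀ β : IrrCharacter (Cn P K),
      IsIrrCharacter (K ⊓ Subgroup.centralizer ((P : Subgroup G) : Set G) : Subgroup G)
        ((β : _ → ℂ) ∘ (eC P K).symm) := fun β =>
    isIrr_comp (eC P K).symm.toMonoidHom (eC P K).symm.surjective β.2
  have htrans' : ∀ (θ : IrrCharacter K) (β : IrrCharacter (Cn P K)),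
      classInner (fun c : (K ⊓ Subgroup.centralizer ((P : Subgroup G) : Set G) : Subgroup G) =>
        (θ : K → ℂ) ⟨c, c.2.1⟩) ((β : _ → ℂ) ∘ (eC P K).symm) =
      classInner (resC P K (θ : K → ℂ)) (β : _ → ℂ) := by
    intro θ β
    rw [← htrans θ ⟨_, hirr' β⟩]
    congr 1
  constructor
  · intro θ hθ
    obtain ⟨β, ⟨m, hm, hpm⟩, huniq⟩ := h1 θ ((pinv_iff θ).1 hθ)
    refine ⟨⟨_, hirr β⟩, ⟨m, ?_, hpm⟩, ?_⟩
    · rw [← hm]
      exact htrans θ β
    · rintro β' ⟨m', hm', hpm'⟩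
      have h5 := huniq ⟨_, hirr' β'⟩ ⟨m', by rw [← hm']; exact htrans' θ β', hpm'⟩
      apply Subtype.ext
      rw [← h5]
      funext c
      simp
  · intro θ θ' hθ hθ' β ⟨m, hm, hpm⟩ ⟨m', hm', hpm'⟩
    exact h3 θ θ' ((pinv_iff θ).1 hθ) ((pinv_iff θ').1 hθ') ⟨_, hirr' β⟩ m m'
      (by rw [← hm]; exact htrans' θ β) hpm (by rw [← hm']; exact htrans' θ' β) hpm'

/-- **Real classes meet `C_K(P)`.** -/
theorem meet (hodd : Odd K.index) (hKp : ¬ p ∣ Nat.card K) (hreal : RealPrime p G) {x : G}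
    (hx : IsConj x x⁻¹) :
    ∃ y ∈ K ⊓ Subgroup.centralizer ((P : Subgroup G) : Set G), IsConj x y := by
  classical
  have := Fintype.ofFinite K
  have := Fintype.ofFinite (Cn P K)
  have hPK : (P : Subgroup G) ⊓ K = ⊥ := by
    rw [eq_bot_iff]
    rintro y ⟨hy1, hy2⟩
    obtain ⟨k, hk⟩ := P.isPGroup' ⟨y, hy1⟩
    have hk' : y ^ p ^ k = 1 := congrArg Subtype.val hk
    have h1 : orderOf (⟨y, hy2⟩ : K) ∣ Nat.card K := orderOf_dvd_natCard _
    rw [Subgroup.orderOf_mk] at h1
    have h2 : orderOf y ∣ p ^ k := orderOf_dvd_of_pow_eq_one hk'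
    have h3 : Nat.Coprime (p ^ k) (Nat.card K) :=
      Nat.Coprime.pow_left k ((Nat.Prime.coprime_iff_not_dvd hp.out).2 hKp)
    have h4 := Nat.eq_one_of_dvd_coprimes h3 h2 h1
    rw [orderOf_eq_one_iff] at h4
    exact Subgroup.mem_bot.2 h4
  have hodd' : Odd (Cn P K).index := hodd.of_dvd_nat (Cn_index_dvd P K hPK)
  have hA := card_orbits_eq (A := G) (X := RIrr K) (Y := RCl K) (fun g => card_fixedBy_eq hodd g)
  have hB := card_orbits_eq (A := Subgroup.normalizer ((P : Subgroup G) : Set G))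
    (X := RIrr (Cn P K)) (Y := RCl (Cn P K)) (fun g => card_fixedBy_eq hodd' g)
  obtain ⟨hg1, hg2⟩ := glaub (P := P) (K := K) hKp
  -- a `P`-invariant real character in each orbit
  have hrep : ∀ a : MulAction.orbitRel.Quotient G (RIrr K),
      ∃ θ : RIrr K, Quotient.mk'' θ = a ∧ PInv P K θ.1 := by
    intro a
    induction a using Quotient.inductionOn' with
    | h θ =>
    obtain ⟨χ, hχ, hχr, h0⟩ := exists_real_over' K hodd θ.1.2 θ.2
    obtain ⟨g, hg⟩ := exists_conj_invariant P.isPGroup' K θ.1.2 hχ h0 (hreal ⟨χ, hχ⟩ hχr)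
    refine ⟨g⁻¹ • θ, Quotient.sound' ⟨g⁻¹, rfl⟩, ?_⟩
    intro x hx
    have h1 : ((g⁻¹ • θ : RIrr K).1 : K → ℂ) = conjFn K (θ.1 : K → ℂ) g := by
      rw [coe_smul_rirr, irrSmul_eq_conjFn, inv_inv]
    apply Subtype.ext
    rw [irrSmul_eq_conjFn, h1]
    exact hg x⁻¹ (Subgroup.inv_mem _ hx)
  choose Θ hΘ hΘP using hrep
  choose β hβ hβu using fun a => hg1 (Θ a).1 (hΘP a)
  -- `β a` is real
  have hβr : ∀ a (c : Cn P K), ((β a : Cn P K → ℂ) c).im = 0 := by
    intro a
    have h1 := hβu a ⟨fun c => conj ((β a : Cn P K → ℂ) c), isIrr_conj (β a).2⟩ (by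
      obtain ⟨m, hm, hpm⟩ := hβ a
      refine ⟨m, ?_, hpm⟩
      rw [← Complex.conj_natCast m, ← hm, classInner_def, classInner_def, map_mul, map_inv₀,
        Complex.conj_natCast, map_sum]
      congr 1
      refine Finset.sum_congr rfl fun c _ => ?_
      rw [map_mul]
      congr 1
      symm
      rw [Complex.conj_eq_iff_im]
      exact (Θ a).2 _)
    intro c
    rw [← Complex.conj_eq_iff_im]
    exact congrFun (congrArg Subtype.val h1) c
  let F : MulAction.orbitRel.Quotient G (RIrr K) →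
      MulAction.orbitRel.Quotient (Subgroup.normalizer ((P : Subgroup G) : Set G)) (RIrr (Cn P K)) :=
    fun a => Quotient.mk'' ⟨β a, hβr a⟩
  have hF : Function.Injective F := by
    intro a b hab
    obtain ⟨n, hn⟩ := Quotient.exact' hab
    have h1 : irrSmul n (β b) = β a := congrArg Subtype.val hn
    have h2 : irrSmul (n : G) (Θ b).1 = (Θ a).1 := by
      apply hg2 _ _ (pinv_smul (hΘP b) n.2) (hΘP a) (β a) _ (hβ a)
      obtain ⟨m, hm, hpm⟩ := hβ b
      refine ⟨m, ?_, hpm⟩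
      rw [← hm, ← h1, resC_smul]
      exact classInner_comp_mulEquiv _ _ _
    rw [← hΘ a, ← hΘ b]
    exact Quotient.sound' ⟨n, Subtype.ext h2⟩
  have hcard : Nat.card (MulAction.orbitRel.Quotient G (RCl K)) ≤
      Nat.card (MulAction.orbitRel.Quotient (Subgroup.normalizer ((P : Subgroup G) : Set G))
        (RCl (Cn P K))) := by
    have h1 : Finite (MulAction.orbitRel.Quotient (Subgroup.normalizer ((P : Subgroup G) : Set G))
        (RIrr (Cn P K))) := Quotient.finite _
    rw [← hA, ← hB]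
    exact Nat.card_le_card_of_injective F hF
  -- representatives of the classes of `Cn P K`
  have hrep2 : ∀ b : MulAction.orbitRel.Quotient (Subgroup.normalizer ((P : Subgroup G) : Set G))
      (RCl (Cn P K)), ∃ (y : Cn P K) (hy : IsConj y y⁻¹),
        Quotient.mk'' (⟨ConjClasses.mk y, fun k hk =>
          isConj_inv_of_isConj (ConjClasses.mk_eq_mk_iff_isConj.1 hk).symm hy⟩ :
          RCl (Cn P K)) = b := by
    intro b
    induction b using Quotient.inductionOn' with
    | h C =>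
    obtain ⟨C, hC⟩ := C
    obtain ⟨y, rfl⟩ := ConjClasses.exists_rep C
    exact ⟨y, hC y rfl, rfl⟩
  choose y hy hyb using hrep2
  let i : Cn P K → K := fun c => ⟨(c : Subgroup.normalizer ((P : Subgroup G) : Set G)),
    (Subgroup.mem_subgroupOf.1 c.2).1⟩
  have hi : ∀ c : Cn P K, IsConj c c⁻¹ → IsConj (i c) (i c)⁻¹ := by
    intro c hc
    obtain ⟨d, hd⟩ := isConj_iff.1 hc
    refine isConj_iff.2 ⟨i d, ?_⟩
    have h1 := congrArg (fun z : Cn P K => ((z : Subgroup.normalizer ((P : Subgroup G) : Set G)) : G)) hd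
    exact Subtype.ext h1
  let Φ : MulAction.orbitRel.Quotient (Subgroup.normalizer ((P : Subgroup G) : Set G))
      (RCl (Cn P K)) → MulAction.orbitRel.Quotient G (RCl K) :=
    fun b => Quotient.mk'' ⟨ConjClasses.mk (i (y b)), fun k hk =>
      isConj_inv_of_isConj (ConjClasses.mk_eq_mk_iff_isConj.1 hk).symm (hi _ (hy b))⟩
  have hΦ : Function.Injective Φ := by
    intro a b hab
    obtain ⟨g, hg⟩ := Quotient.exact' hab
    have h1 : clSmul g (ConjClasses.mk (i (y b))) = ConjClasses.mk (i (y a)) :=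
      congrArg Subtype.val hg
    rw [clSmul_mk, ConjClasses.mk_eq_mk_iff_isConj] at h1
    obtain ⟨c, hc⟩ := isConj_iff.1 h1
    have hc' := congrArg Subtype.val hc
    simp only [Subgroup.coe_mul, MulAut.conjNormal_apply, Subgroup.coe_inv] at hc'
    -- conjugate in `G`
    have hya := (Subgroup.mem_subgroupOf.1 (y a).2).2
    have hyb' := (Subgroup.mem_subgroupOf.1 (y b).2).2
    set ga : G := ((y a : Subgroup.normalizer ((P : Subgroup G) : Set G)) : G) with hga
    set gb : G := ((y b : Subgroup.normalizer ((P : Subgroup G) : Set G)) : G) with hgb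
    have hconj : ((c : G) * g)⁻¹⁻¹ * gb * ((c : G) * g)⁻¹ = ga := by
      have h2 : (c : G) * (g * gb * g⁻¹) * (c : G)⁻¹ = ga := hc'
      rw [← h2]; group
    obtain ⟨n, hn, hn'⟩ := Sylow.conj_eq_normalizer_conj_of_mem_centralizer P gb ((c : G) * g)⁻¹
      hyb' (by rw [hconj]; exact hya)
    rw [hconj] at hn'
    rw [← hyb a, ← hyb b]
    refine Quotient.sound' ⟨⟨n, hn⟩⁻¹, Subtype.ext ?_⟩
    show clSmul _ (ConjClasses.mk (y b)) = ConjClasses.mk (y a)
    rw [clSmul_mk]
    congr 1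
    apply Subtype.ext
    apply Subtype.ext
    rw [MulAut.conjNormal_apply]
    simp only [Subgroup.coe_mul, Subgroup.coe_inv, inv_inv]
    exact hn'.symm
  have hfin1 : Finite (MulAction.orbitRel.Quotient G (RCl K)) := Quotient.finite _
  have hsurj : Function.Surjective Φ := by
    have h1 := Nat.card_le_card_of_injective Φ hΦ
    have h2 : Nat.card (MulAction.orbitRel.Quotient (Subgroup.normalizer ((P : Subgroup G) : Set G))
        (RCl (Cn P K))) = Nat.card (MulAction.orbitRel.Quotient G (RCl K)) :=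
      le_antisymm h1 hcard
    exact (Nat.bijective_iff_injective_and_card Φ).2 ⟨hΦ, h2⟩ |>.2
  have hxK : x ∈ K := real_mem hodd hx
  have hxr : IsConj (⟨x, hxK⟩ : K) (⟨x, hxK⟩ : K)⁻¹ := real_in hodd hx
  obtain ⟨b, hb⟩ := hsurj (Quotient.mk'' ⟨ConjClasses.mk (⟨x, hxK⟩ : K), fun k hk =>
      isConj_inv_of_isConj (ConjClasses.mk_eq_mk_iff_isConj.1 hk).symm hxr⟩)
  obtain ⟨g, hg⟩ := Quotient.exact' hb
  have h1 : clSmul g (ConjClasses.mk (⟨x, hxK⟩ : K)) = ConjClasses.mk (i (y b)) :=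
    congrArg Subtype.val hg
  rw [clSmul_mk, ConjClasses.mk_eq_mk_iff_isConj] at h1
  obtain ⟨c, hc⟩ := isConj_iff.1 h1
  have hc' := congrArg Subtype.val hc
  simp only [Subgroup.coe_mul, MulAut.conjNormal_apply, Subgroup.coe_inv] at hc'
  refine ⟨((y b : Subgroup.normalizer ((P : Subgroup G) : Set G)) : G),
    Subgroup.mem_subgroupOf.1 (y b).2, isConj_iff.2 ⟨(c : G) * g, ?_⟩⟩
  have h2 : (c : G) * (g * x * g⁻¹) * (c : G)⁻¹ =
    ((y b : Subgroup.normalizer ((P : Subgroup G) : Set G)) : G) := hc'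
  rw [← h2]; group

end main

end Cfsg.Agent.H693.Meet
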