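import Mathlib
import Cfsg.Prelude.Def_Blocks
import Cfsg.Agent.H693.Meet

/-!
# Real classes meet the normalizer of a Sylow subgroup
-/

set_option autoImplicit false

namespace Cfsg.Agent.H693.Meet2

open Cfsg Cfsg.Agent.H693.GenBasic Cfsg.Agent.H693.ThmA Cfsg.Agent.H693.Meet

universe u

variable {G : Type u} [Group G]

/-- `gen 2 G` has odd index. -/
theorem odd_index [Finite G] : Odd (gen 2 G).index := by
  have hn : (gen 2 G).Normal := gen_normal Nat.prime_two
  rw [← Nat.not_even_iff_odd, even_iff_two_dvd]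
  intro h
  have h1 : 2 ∣ Nat.card (G ⧸ gen 2 G) := h
  obtain ⟨x, hx⟩ := exists_prime_orderOf_dvd_card' 2 h1
  have h2 := gen_map Nat.prime_two (QuotientGroup.mk'_surjective (gen 2 G))
  have h3 : x ∈ gen 2 (G ⧸ gen 2 G) := Subgroup.subset_closure ⟨1, by rw [hx, pow_one]⟩
  rw [← h2] at h3
  obtain ⟨y, hy, rfl⟩ := h3
  rw [QuotientGroup.mk'_apply, (QuotientGroup.eq_one_iff y).2 hy, orderOf_one] at hx
  omega

/-- If a Sylow `p`-subgroup meets the normal subgroup `K` trivially then `p` does not divide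
`|K|`. -/
theorem not_dvd_of_inf_eq_bot [Finite G] {p : ℕ} [hp : Fact p.Prime] (P : Sylow p G)
    {K : Subgroup G} (hK : K.Normal) (h : (P : Subgroup G) ⊓ K = ⊥) : ¬ p ∣ Nat.card K := by
  intro hd
  obtain ⟨y, hy⟩ := exists_prime_orderOf_dvd_card' (G := K) p hd
  have h1 : IsPGroup p (Subgroup.zpowers (y : G)) := by
    apply IsPGroup.of_card (n := 1)
    rw [Nat.card_zpowers, Subgroup.orderOf_coe, hy, pow_one]
  obtain ⟨Q, hQ⟩ := h1.exists_le_sylow
  obtain ⟨g, hg⟩ := MulAction.exists_smul_eq G Q P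
  have h2 : g * y * g⁻¹ ∈ (P : Subgroup G) := by
    rw [← hg, Sylow.smul_def, Sylow.pointwise_smul_def]
    exact ⟨y, hQ (Subgroup.mem_zpowers _), rfl⟩
  have h3 : g * y * g⁻¹ ∈ (P : Subgroup G) ⊓ K := ⟨h2, hK.conj_mem _ y.2 g⟩
  rw [h, Subgroup.mem_bot, conj_eq_one_iff] at h3
  have h4 : y = 1 := Subtype.ext h3
  rw [h4, orderOf_one] at hy
  exact hp.out.one_lt.ne hy

/-- A Sylow `p`-subgroup modulo a normal `p`-subgroup. -/
theorem comap_mapSurjective [Finite G] {p : ℕ} [hp : Fact p.Prime] (P : Sylow p G)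
    (Q : Subgroup G) [Q.Normal] (hQ : Q ≤ (P : Subgroup G)) :
    ((P.mapSurjective (QuotientGroup.mk'_surjective Q) : Sylow p (G ⧸ Q)) :
      Subgroup (G ⧸ Q)).comap (QuotientGroup.mk' Q) = (P : Subgroup G) := by
  rw [Sylow.coe_mapSurjective, Subgroup.comap_map_eq, QuotientGroup.ker_mk', sup_eq_left.2 hQ]

/-- The intersection of a Sylow subgroup with `K` modulo itself. -/
theorem map_inf_map [Finite G] {p : ℕ} [hp : Fact p.Prime] (P : Sylow p G)
    (K : Subgroup G) [hQn : ((P : Subgroup G) ⊓ K).Normal] :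
    ((P.mapSurjective (QuotientGroup.mk'_surjective ((P : Subgroup G) ⊓ K)) :
      Sylow p (G ⧸ ((P : Subgroup G) ⊓ K))) : Subgroup (G ⧸ ((P : Subgroup G) ⊓ K))) ⊓
      K.map (QuotientGroup.mk' ((P : Subgroup G) ⊓ K)) = ⊥ := by
  apply Subgroup.comap_injective (QuotientGroup.mk'_surjective ((P : Subgroup G) ⊓ K))
  rw [Subgroup.comap_inf, comap_mapSurjective P _ inf_le_left, Subgroup.comap_map_eq,
    QuotientGroup.ker_mk', sup_eq_left.2 inf_le_right, MonoidHom.comap_bot,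
    QuotientGroup.ker_mk']

/-- **Isaacs–Navarro**: the normalizer of a Sylow `p`-subgroup meets every real class. -/
theorem meet_normalizer [Fintype G] {p : ℕ} [hp : Fact p.Prime]
    (hsolv : Group.IsSolvable (gen p G)) (hreal : RealPrime p G) (P : Sylow p G) {x : G}
    (hx : IsConj x x⁻¹) :
    ∃ y ∈ Subgroup.normalizer ((P : Subgroup G) : Set G), IsConj x y := by
  classical
  set K := gen 2 G with hK
  have hKn : K.Normal := gen_normal Nat.prime_two
  have hQn : ((P : Subgroup G) ⊓ K).Normal :=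
    main hsolv hreal hKn le_rfl ⟨0, by rw [pow_zero, Subgroup.relIndex_self]⟩ P
  set Q := (P : Subgroup G) ⊓ K with hQ
  have hsurj := QuotientGroup.mk'_surjective Q
  set P' : Sylow p (G ⧸ Q) := P.mapSurjective hsurj with hP'
  set K' := K.map (QuotientGroup.mk' Q) with hK'
  have hK'n : K'.Normal := hKn.map _ hsurj
  have hK'gen : K' = gen 2 (G ⧸ Q) := gen_map Nat.prime_two hsurj
  have hcomap : ((P' : Sylow p (G ⧸ Q)) : Subgroup (G ⧸ Q)).comap (QuotientGroup.mk' Q) =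
      (P : Subgroup G) := comap_mapSurjective P Q inf_le_left
  have hPK : (P' : Subgroup (G ⧸ Q)) ⊓ K' = ⊥ := map_inf_map P K
  have hodd : Odd K'.index := by
    rw [hK'gen]
    exact odd_index
  have := Fintype.ofFinite (G ⧸ Q)
  have hx' : IsConj (QuotientGroup.mk' Q x) (QuotientGroup.mk' Q x)⁻¹ := by
    rw [← map_inv]
    exact (QuotientGroup.mk' Q).map_isConj hx
  obtain ⟨y', hy', hxy⟩ := meet (P := P') (K := K') hodd (not_dvd_of_inf_eq_bot P' hK'n hPK)
    (hreal.map hsurj) hx'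
  obtain ⟨c', hc'⟩ := isConj_iff.1 hxy
  obtain ⟨c, rfl⟩ := hsurj c'
  refine ⟨c * x * c⁻¹, ?_, isConj_iff.2 ⟨c, rfl⟩⟩
  have h1 : QuotientGroup.mk' Q (c * x * c⁻¹) = y' := by
    rw [map_mul, map_mul, map_inv]
    exact hc'
  have h2 : y' ∈ Subgroup.normalizer ((P' : Subgroup (G ⧸ Q)) : Set (G ⧸ Q)) :=
    centralizer_le_normalizer _ hy'.2
  rw [Subgroup.mem_normalizer_iff] at h2 ⊢
  intro z
  have h3 := h2 (QuotientGroup.mk' Q z)
  rw [← h1, ← map_mul, ← map_inv, ← map_mul] at h3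
  rw [← hcomap]
  exact h3

end Cfsg.Agent.H693.Meet2
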