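import Mathlib
import Cfsg.Prelude.Def_Blocks
import Cfsg.Agent.Characters.Core
import Cfsg.Agent.CharDeep.TransferExt
import Cfsg.Agent.OddOrderCharacters.PF9.CliffGen
import Cfsg.Agent.H693.RealD
import Cfsg.Agent.H693.Defl

/-!
# Clifford theory over a linear character of a normal `p`-subgroup, with respect to embeddings

`Q` normal in `G`, `lam` a linear character of `Q` with inertia group `I` in `G`, `F` an extension of
`lam` to `I ⊓ K`, invariant in `I`; `i : A →* G` injective with `Q ≤ i(A) ≤ K`.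

* `exists_ext` : existence of `F` when `Q` is a `p`-group and `p ∤ |K : Q|`.
* `Phi i β = Ind_{I ∩ A}^A (F β)`, the Clifford correspondence `Irr ((I ∩ A) / Q) → Irr(A | lam)`.
* `inner_Phi` : inner products of `Phi i β` and `Phi (i ∘ j) β'`, `j : B →* A`.
-/

set_option autoImplicit false
set_option linter.unusedSectionVars false

namespace Cfsg.Agent.H693.RG1

open Cfsg Cfsg.Agent.Characters.Core Cfsg.Agent.H693.RealD Cfsg.Agent.H693.Defl
  Cfsg.Agent.OddOrderCharacters.PF9.CliffGen Cfsg.Agent.OddOrderCharacters.IndRes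
  Cfsg.Agent.OddOrderCharacters.NormalInduced
open scoped ComplexConjugate

universe u

variable {G : Type u} [Group G] {Q : Subgroup G} [hQn : Q.Normal]

/-- The inertia group of a linear character. -/
abbrev In (lam : Q →* ℂˣ) : Subgroup G := inertia Q (fun q => (lam q : ℂ))

theorem mem_In {lam : Q →* ℂˣ} {g : G} :
    g ∈ In lam ↔ ∀ q : Q, lam ⟨g * q * g⁻¹, hQn.conj_mem q q.2 g⟩ = lam q := by
  rw [mem_inertia']
  exact forall_congr' fun q => ⟨fun h => Units.ext h, fun h => congrArg _ h⟩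

theorem le_In (lam : Q →* ℂˣ) : Q ≤ In lam :=
  le_inertia (isIrr_isClassFunction (Characters.Linear.isIrrCharacter_hom lam))

/-- The canonical extension. -/
theorem exists_ext [Finite G] {p : ℕ} [hp : Fact p.Prime] (hQp : IsPGroup p Q) {K : Subgroup G}
    [hK : K.Normal] (hQK : Q ≤ K) (hidx : ¬ p ∣ Q.relIndex K) (lam : Q →* ℂˣ) :
    ∃ F : ↥(In lam ⊓ K) →* ℂˣ, (∀ q : Q, F ⟨q, le_In lam q.2, hQK q.2⟩ = lam q) ∧
      ∀ x ∈ In lam, ∀ l l' : ↥(In lam ⊓ K), (l' : G) = x * l * x⁻¹ → F l' = F l := by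
  classical
  obtain ⟨k, hk⟩ := IsPGroup.iff_card.1 hQp
  have hQL : Q ≤ In lam ⊓ K := le_inf (le_In lam) hQK
  have hidx' : ¬ p ∣ Q.relIndex (In lam ⊓ K) := by
    intro h
    apply hidx
    rw [← Subgroup.relIndex_mul_relIndex Q (In lam ⊓ K) K hQL inf_le_right]
    exact h.mul_right _
  have hcop : Nat.Coprime (Q.relIndex (In lam ⊓ K)) (p ^ k) :=
    Nat.Coprime.pow_right k ((Nat.Prime.coprime_iff_not_dvd hp.out).2 hidx').symm
  let N : Subgroup ↥(In lam ⊓ K) := Q.subgroupOf (In lam ⊓ K)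
  have hN : N.Normal := hQn.subgroupOf _
  let φ : N →* ℂˣ := lam.comp (Subgroup.subgroupOfEquivOfLe hQL).toMonoidHom
  have hφ : ∀ n : N, φ n = lam ⟨((n : ↥(In lam ⊓ K)) : G), Subgroup.mem_subgroupOf.1 n.2⟩ :=
    fun n => rfl
  obtain ⟨F, hF, hFm⟩ := Cfsg.Agent.CharDeep.TransferExt.exists_extension_of_coprime N φ
    (fun g n => by
      rw [hφ, hφ]
      exact mem_In.1 g.2.1 ⟨((n : ↥(In lam ⊓ K)) : G), Subgroup.mem_subgroupOf.1 n.2⟩)
    (p ^ k) (fun n => by
      rw [hφ, ← map_pow, ← hk, pow_card_eq_one', map_one]) hcop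
  have hFQ : ∀ q : Q, F ⟨q, le_In lam q.2, hQK q.2⟩ = lam q := by
    intro q
    exact hF ⟨⟨q, le_In lam q.2, hQK q.2⟩, Subgroup.mem_subgroupOf.2 q.2⟩
  refine ⟨F, hFQ, ?_⟩
  intro x hx l l' hll
  -- the conjugate
  let c : ↥(In lam ⊓ K) →* ↥(In lam ⊓ K) :=
    { toFun := fun t => ⟨x * t * x⁻¹, (In lam).mul_mem ((In lam).mul_mem hx t.2.1)
        ((In lam).inv_mem hx), hK.conj_mem t t.2.2 x⟩
      map_one' := Subtype.ext (by simp)
      map_mul' := fun a b => Subtype.ext (by simp [mul_assoc]) }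
  let μ : ↥(In lam ⊓ K) →* ℂˣ := (F.comp c) * F⁻¹
  have hμ : ∀ t, μ t = F (c t) * (F t)⁻¹ := fun t => rfl
  have hμQ : ∀ t : ↥(In lam ⊓ K), (t : G) ∈ Q → μ t = 1 := by
    intro t ht
    have h1 : F t = lam ⟨t, ht⟩ := hFQ ⟨t, ht⟩
    have h2 : F (c t) = lam ⟨x * t * x⁻¹, hQn.conj_mem t ht x⟩ :=
      hFQ ⟨x * t * x⁻¹, hQn.conj_mem t ht x⟩
    rw [hμ, h1, h2, mem_In.1 hx ⟨t, ht⟩, mul_inv_cancel]
  have h1 : μ l ^ (Q.relIndex (In lam ⊓ K)) = 1 := by
    rw [← map_pow]
    apply hμQ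
    have := Subgroup.pow_index_mem N l
    exact Subgroup.mem_subgroupOf.1 this
  have h2 : μ l ^ (p ^ k) = 1 := by
    rw [hμ, mul_pow, hFm, inv_pow, hFm, inv_one, mul_one]
  have h3 : μ l = 1 := by
    rw [← orderOf_eq_one_iff]
    exact Nat.eq_one_of_dvd_coprimes hcop (orderOf_dvd_of_pow_eq_one h1)
      (orderOf_dvd_of_pow_eq_one h2)
  have h4 : l' = c l := Subtype.ext hll
  rw [hμ, mul_inv_eq_one] at h3
  rw [h4, h3]

section datum

variable {K : Subgroup G} {lam : Q →* ℂˣ} (F : ↥(In lam ⊓ K) →* ℂˣ)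
  {A : Type u} [Group A] (i : A →* G)

/-- The inertia group in `A`. -/
abbrev TA (lam : Q →* ℂˣ) (i : A →* G) : Subgroup A := (In lam).comap i

/-- The linear character of `Q`, in `A`. -/
def lamA (lam : Q →* ℂˣ) (i : A →* G) : Q.comap i →* ℂˣ := lam.comp (i.subgroupComap Q)

theorem lamA_apply (q : Q.comap i) : lamA lam i q = lam ⟨i q, q.2⟩ := rfl

/-- The inclusion of the inertia group. -/
def iT (lam : Q →* ℂˣ) (i : A →* G) (hiK : ∀ a, i a ∈ K) : TA lam i →* ↥(In lam ⊓ K) where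
  toFun t := ⟨i t, t.2, hiK t⟩
  map_one' := Subtype.ext (by simp)
  map_mul' a b := Subtype.ext (by simp)

/-- The extension, in `A`. -/
def FA (hiK : ∀ a, i a ∈ K) : TA lam i →* ℂˣ := F.comp (iT lam i hiK)

theorem FA_apply (hiK : ∀ a, i a ∈ K) (t : TA lam i) :
    FA F i hiK t = F ⟨i t, t.2, hiK t⟩ := rfl

theorem QA_le_TA : Q.comap i ≤ TA lam i := Subgroup.comap_mono (le_In lam)

/-- Extension property. -/
theorem FA_Q (hiK : ∀ a, i a ∈ K) (hQK : Q ≤ K)
    (hF : ∀ q : Q, F ⟨q, le_In lam q.2, hQK q.2⟩ = lam q) (q : Q.comap i) :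
    FA F i hiK ⟨q, QA_le_TA i q.2⟩ = lamA lam i q :=
  hF ⟨i q, q.2⟩

/-- The inertia group in `A`. -/
theorem mem_TA (hQi : ∀ q ∈ Q, ∃ a, i a = q) (g : A) :
    g ∈ TA lam i ↔ conjFn (Q.comap i) (fun n => (lamA lam i n : ℂ)) g =
      fun n => (lamA lam i n : ℂ) := by
  rw [Subgroup.mem_comap, mem_In, funext_iff]
  constructor
  · intro h n
    rw [conjFn_apply]
    congr 1
    rw [lamA_apply, lamA_apply]
    rw [← h ⟨i n, n.2⟩]
    congr 1
    apply Subtype.ext
    simp
  · rintro h ⟨q, hq⟩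
    obtain ⟨a, rfl⟩ := hQi q hq
    have h1 := h ⟨a, hq⟩
    rw [conjFn_apply] at h1
    have h2 := Units.ext h1
    rw [lamA_apply, lamA_apply] at h2
    rw [← h2]
    congr 1
    apply Subtype.ext
    simp

end datum

section cliff

variable {K : Subgroup G} {lam : Q →* ℂˣ} {F : ↥(In lam ⊓ K) →* ℂˣ}
  {A : Type u} [Group A] [Fintype A] {i : A →* G}

/-- The standing assumptions on the embedding. -/
structure Emb (Q K : Subgroup G) (i : A →* G) : Prop where
  inj : Function.Injective i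
  hQ : ∀ q ∈ Q, ∃ a, i a = q
  hK : ∀ a, i a ∈ K
  hQK : Q ≤ K

/-- The standing assumptions on the extension. -/
structure IsExt (Q K : Subgroup G) [hQn : Q.Normal] (hQK : Q ≤ K) (lam : Q →* ℂˣ)
    (F : ↥(In lam ⊓ K) →* ℂˣ) : Prop where
  ext : ∀ q : Q, F ⟨q, le_In lam q.2, hQK q.2⟩ = lam q
  inv : ∀ x ∈ In lam, ∀ l l' : ↥(In lam ⊓ K), (l' : G) = x * l * x⁻¹ → F l' = F l

/-- `χ` lies over `lam`. -/
def Over (lam : Q →* ℂˣ) (i : A →* G) (χ : A → ℂ) : Prop :=
  ∃ _ : Fintype (Q.comap i), classInner (res (Q.comap i) χ) (fun n => (lamA lam i n : ℂ)) ≠ 0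

theorem over_iff [inst : Fintype (Q.comap i)] {χ : A → ℂ} : Over lam i χ ↔
    classInner (res (Q.comap i) χ) (fun n => (lamA lam i n : ℂ)) ≠ 0 := by
  constructor
  · rintro ⟨inst', h⟩
    rwa [Subsingleton.elim inst' inst] at h
  · intro h
    exact ⟨inst, h⟩

/-- The Clifford correspondent. -/
noncomputable def Phi (F : ↥(In lam ⊓ K) →* ℂˣ) (i : A →* G) (hi : Emb Q K i)
    (β : TA lam i → ℂ) : A → ℂ :=
  indFun (TA lam i) (fun t => (FA F i hi.hK t : ℂ) * β t)

/-- Triviality on `Q`. -/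
def KerQ (lam : Q →* ℂˣ) (i : A →* G) (β : TA lam i → ℂ) : Prop :=
  ∀ n : Q.comap i, β ⟨n, QA_le_TA i n.2⟩ = β 1

theorem irr_Phi (hi : Emb Q K i) (hF : IsExt Q K hi.hQK lam F) {β : TA lam i → ℂ}
    (hβ : IsIrrCharacter (TA lam i) β) (hker : KerQ lam i β) :
    IsIrrCharacter A (Phi F i hi β) := by
  classical
  have := Fintype.ofFinite (TA lam i)
  have := Fintype.ofFinite (Q.comap i)
  exact irr_twist (lam := lamA lam i) (F := FA F i hi.hK) (fun g => mem_TA i hi.hQ g)
    (QA_le_TA i) (FA_Q F i hi.hK hi.hQK hF.ext) hβ hker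

theorem Phi_inj (hi : Emb Q K i) (hF : IsExt Q K hi.hQK lam F) {β β' : TA lam i → ℂ}
    (hβ : IsIrrCharacter (TA lam i) β) (hker : KerQ lam i β)
    (hβ' : IsIrrCharacter (TA lam i) β') (hker' : KerQ lam i β')
    (h : Phi F i hi β = Phi F i hi β') : β = β' := by
  classical
  have := Fintype.ofFinite (TA lam i)
  have := Fintype.ofFinite (Q.comap i)
  exact twist_inj (lam := lamA lam i) (F := FA F i hi.hK) (fun g => mem_TA i hi.hQ g)
    (QA_le_TA i) (FA_Q F i hi.hK hi.hQK hF.ext) hβ hker hβ' hker' h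

theorem exists_Phi (hi : Emb Q K i) (hF : IsExt Q K hi.hQK lam F) {χ : A → ℂ}
    (hχ : IsIrrCharacter A χ) (h0 : Over lam i χ) :
    ∃ β : TA lam i → ℂ, IsIrrCharacter (TA lam i) β ∧ KerQ lam i β ∧ χ = Phi F i hi β := by
  classical
  have := Fintype.ofFinite (TA lam i)
  have := Fintype.ofFinite (Q.comap i)
  exact exists_twist (lam := lamA lam i) (F := FA F i hi.hK) (fun g => mem_TA i hi.hQ g)
    (QA_le_TA i) (FA_Q F i hi.hK hi.hQK hF.ext) hχ (over_iff.1 h0)

theorem Phi_one (hi : Emb Q K i) (β : TA lam i → ℂ) :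
    Phi F i hi β 1 = (TA lam i).index * β 1 := by
  unfold Phi
  rw [indFun_apply_one, map_one, Units.val_one, one_mul]

/-- Transitivity of constituents. -/
theorem const_trans {H M : Type*} [Group H] [Fintype H] [Group M] [Fintype M] (φ : M →* H)
    {χ ψ : H → ℂ} {l : M → ℂ} (hχ : IsCharacter H χ) (hψ : IsIrrCharacter H ψ)
    (hl : IsCharacter M l) (h1 : classInner χ ψ ≠ 0) (h2 : classInner (fun m => ψ (φ m)) l ≠ 0) :
    classInner (fun m => χ (φ m)) l ≠ 0 := by
  have h3 := Cfsg.Agent.OddOrderCharacters.Clifford.isCharacter_sub_irr hχ hψ h1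
  have h4 : (fun m => χ (φ m)) = (fun m => ψ (φ m)) + (fun m => (χ - ψ) (φ m)) := by
    funext m
    simp
  rw [h4, classInner_add_left]
  obtain ⟨a, ha⟩ := classInner_isNat (isCharacter_comp φ (isIrr_isCharacter hψ)) hl
  obtain ⟨b, hb⟩ := classInner_isNat (isCharacter_comp φ h3) hl
  have ha' : classInner (fun m => ψ (φ m)) l = a := ha
  have hb' : classInner (fun m => (χ - ψ) (φ m)) l = b := hb
  rw [ha'] at h2 ⊢
  rw [hb']
  have h5 : a ≠ 0 := by
    rintro rfl
    exact h2 Nat.cast_zero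
  rw [← Nat.cast_add]
  exact_mod_cast (by omega : a + b ≠ 0)

section two

variable {B : Type u} [Group B] [Fintype B] {j : B →* A}

/-- The embedding of inertia groups. -/
def jT (lam : Q →* ℂˣ) (i : A →* G) (j : B →* A) : TA lam (i.comp j) →* TA lam i where
  toFun t := ⟨j t, t.2⟩
  map_one' := Subtype.ext (by simp)
  map_mul' a b := Subtype.ext (by simp)

/-- The embedding of the copies of `Q`. -/
def jQ (Q : Subgroup G) (i : A →* G) (j : B →* A) : Q.comap (i.comp j) →* Q.comap i where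
  toFun t := ⟨j t, t.2⟩
  map_one' := Subtype.ext (by simp)
  map_mul' a b := Subtype.ext (by simp)

theorem jQ_surj (hi : Emb Q K i) (hij : Emb Q K (i.comp j)) :
    Function.Surjective (jQ Q i j) := by
  rintro ⟨a, ha⟩
  obtain ⟨b, hb⟩ := hij.hQ (i a) ha
  have h1 : j b = a := hi.inj hb
  refine ⟨⟨b, ?_⟩, Subtype.ext h1⟩
  show i (j b) ∈ Q
  rw [h1]
  exact ha

/-- `Over` along `j`. -/
theorem over_comp (hi : Emb Q K i) (hij : Emb Q K (i.comp j)) {χ : A → ℂ} :
    Over lam (i.comp j) (fun b => χ (j b)) ↔ Over lam i χ := by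
  classical
  have := Fintype.ofFinite (Q.comap i)
  have := Fintype.ofFinite (Q.comap (i.comp j))
  rw [over_iff, over_iff, ← classInner_comp_surj (jQ Q i j) (jQ_surj hi hij)]
  rfl

/-- The inner product formula. -/
theorem inner_Phi [Fintype (TA lam (i.comp j))] (hi : Emb Q K i) (hij : Emb Q K (i.comp j))
    (hF : IsExt Q K hi.hQK lam F)
    {β : TA lam i → ℂ} (hβ : IsIrrCharacter (TA lam i) β) (hker : KerQ lam i β)
    {β' : TA lam (i.comp j) → ℂ} (hβ' : IsIrrCharacter (TA lam (i.comp j)) β')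
    (hker' : KerQ lam (i.comp j) β') :
    classInner (fun b => Phi F i hi β (j b)) (Phi F (i.comp j) hij β') =
      classInner (fun t => β (jT lam i j t)) β' := by
  classical
  have := Fintype.ofFinite (TA lam i)
  have := Fintype.ofFinite (Q.comap i)
  have := Fintype.ofFinite (Q.comap (i.comp j))
  have hfin := finite_irr (G := TA lam i)
  have := Fintype.ofFinite (IrrCharacter (TA lam i))
  have hPhi := irr_Phi hi hF hβ hker
  have hcl : IsClassFunction B (fun b => Phi F i hi β (j b)) := by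
    intro x y
    show Phi F i hi β (j (y * x * y⁻¹)) = Phi F i hi β (j x)
    rw [map_mul, map_mul, map_inv]
    exact isIrr_isClassFunction hPhi _ _
  conv_lhs => rw [Phi.eq_def F (i.comp j) hij β']
  rw [classInner_indFun_right _ _ hcl]
  set g : TA lam (i.comp j) → ℂ := fun t => (FA F (i.comp j) hij.hK t : ℂ) * β' t with hg
  have hgirr : IsIrrCharacter (TA lam (i.comp j)) g :=
    Cfsg.Agent.OddOrderCharacters.InertiaAbelian.isIrr_mul_hom _ hβ'
  set X : TA lam i → ℂ := res (TA lam i) (Phi F i hi β) with hX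
  have hXc : IsCharacter (TA lam i) X := isCharacter_res _ (isIrr_isCharacter hPhi)
  have h1 : res (TA lam (i.comp j)) (fun b => Phi F i hi β (j b)) =
      fun t => X (jT lam i j t) := rfl
  rw [h1]
  set η₀ : IrrCharacter (TA lam i) := ⟨fun t => (FA F i hi.hK t : ℂ) * β t,
    Cfsg.Agent.OddOrderCharacters.InertiaAbelian.isIrr_mul_hom _ hβ⟩ with hη₀
  have hX0 : classInner X (η₀ : TA lam i → ℂ) = 1 := by
    rw [hX, ← classInner_indFun_right _ _ (isIrr_isClassFunction hPhi)]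
    exact classInner_irr_self hPhi
  -- other constituents
  have hoth : ∀ η : IrrCharacter (TA lam i), η ≠ η₀ → classInner X (η : TA lam i → ℂ) *
      classInner (fun t => (η : TA lam i → ℂ) (jT lam i j t)) g = 0 := by
    intro η hη
    by_contra hne
    have hne1 := left_ne_zero_of_mul hne
    have hne2 := right_ne_zero_of_mul hne
    -- `η` lies over `lam`
    have hlc : IsCharacter (Q.comap (i.comp j)) (fun n => (lamA lam (i.comp j) n : ℂ)) :=
      isIrr_isCharacter (Characters.Linear.isIrrCharacter_hom _)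
    have h2 : classInner (fun n : Q.comap (i.comp j) =>
        (η : TA lam i → ℂ) (jT lam i j ⟨n, QA_le_TA (lam := lam) (i.comp j) n.2⟩))
        (fun n => (lamA lam (i.comp j) n : ℂ)) ≠ 0 := by
      refine const_trans (Subgroup.inclusion (QA_le_TA (lam := lam) (i.comp j)))
        (isCharacter_comp (jT lam i j) (isIrr_isCharacter η.2)) hgirr hlc hne2 ?_
      exact twist_over (lam := lamA lam (i.comp j)) (F := FA F (i.comp j) hij.hK)
        (QA_le_TA (i.comp j)) (FA_Q F (i.comp j) hij.hK hij.hQK hF.ext) hβ' hker'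
    have h3 : classInner (resTo (QA_le_TA (lam := lam) i) (η : TA lam i → ℂ))
        (fun n => (lamA lam i n : ℂ)) ≠ 0 := by
      rw [← classInner_comp_surj (jQ Q i j) (jQ_surj hi hij)]
      exact h2
    have hlirr : IsIrrCharacter (Q.comap i) (fun n => (lamA lam i n : ℂ)) :=
      Characters.Linear.isIrrCharacter_hom _
    have h4 := irr_ind hlirr (fun g => mem_TA i hi.hQ g) (QA_le_TA i) η.2 h3
    have h5 : classInner (Phi F i hi β) (indFun (TA lam i) (η : TA lam i → ℂ)) ≠ 0 := by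
      rw [classInner_indFun_right _ _ (isIrr_isClassFunction hPhi)]
      exact hne1
    have h6 : Phi F i hi β = indFun (TA lam i) (η : TA lam i → ℂ) := by
      by_contra h
      exact h5 (classInner_irr_ne hPhi h4 h)
    apply hη
    apply Subtype.ext
    refine (ind_inj hlirr (fun g => mem_TA i hi.hQ g) (QA_le_TA i) η.2 η₀.2 h3 ?_ h6.symm)
    exact twist_over (lam := lamA lam i) (F := FA F i hi.hK)
        (QA_le_TA i) (FA_Q F i hi.hK hi.hQK hF.ext) hβ hker
  have hexp := classFunction_eq_sum (isCharacter_isClassFunction hXc)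
  have h7 : (fun t => X (jT lam i j t)) = ∑ η : IrrCharacter (TA lam i),
      classInner X (η : TA lam i → ℂ) • (fun t => (η : TA lam i → ℂ) (jT lam i j t)) := by
    funext t
    conv_lhs => rw [hexp]
    rw [Finset.sum_apply, Finset.sum_apply]
    rfl
  rw [h7, classInner_sum_left, Finset.sum_eq_single η₀]
  · rw [classInner_smul_left, hX0, one_mul, classInner_def, classInner_def]
    congr 1
    refine Finset.sum_congr rfl fun t _ => ?_
    have h8 : (FA F i hi.hK (jT lam i j t) : ℂ) * conj (FA F (i.comp j) hij.hK t : ℂ) = 1 := by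
      have h9 : FA F i hi.hK (jT lam i j t) = FA F (i.comp j) hij.hK t := rfl
      rw [h9]
      have h10 := Cfsg.Agent.Characters.Linear.norm_hom_apply (FA F (i.comp j) hij.hK) t
      rw [Complex.mul_conj, Complex.normSq_eq_norm_sq, h10]
      simp
    rw [hg]
    show (FA F i hi.hK (jT lam i j t) : ℂ) * β (jT lam i j t) *
      conj ((FA F (i.comp j) hij.hK t : ℂ) * β' t) = _
    rw [map_mul]
    calc (FA F i hi.hK (jT lam i j t) : ℂ) * β (jT lam i j t) *
          (conj (FA F (i.comp j) hij.hK t : ℂ) * conj (β' t))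
        = ((FA F i hi.hK (jT lam i j t) : ℂ) * conj (FA F (i.comp j) hij.hK t : ℂ)) *
          (β (jT lam i j t) * conj (β' t)) := by ring
      _ = _ := by rw [h8, one_mul]
  · intro η _ hη
    rw [classInner_smul_left]
    exact hoth η hη
  · intro h
    exact absurd (Finset.mem_univ _) h

end two

end cliff

end Cfsg.Agent.H693.RG1
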