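import Mathlib
import Cfsg.Prelude.Def_Blocks
import Cfsg.Agent.Characters.Core
import Cfsg.Agent.H596.WeightedFix
import Cfsg.Agent.H692.RealAct
import Cfsg.Agent.H693.RealD
import Cfsg.Agent.H693.Defl
import Cfsg.Agent.H693.SylOrb
import Cfsg.Agent.H693.RG1

/-!
# The Glauberman correspondence relative to a normal `p`-subgroup

`K` normal in `G`, `P` a Sylow `p`-subgroup, `Q = P ⊓ K` normal in `G`, `N = N_G(P)`. The
`P`-invariant irreducible characters of `K` of degree prime to `p` correspond to those of `K ⊓ N`.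
-/

set_option autoImplicit false
set_option linter.unusedSectionVars false

namespace Cfsg.Agent.H693.RG2

open Cfsg Cfsg.Agent.Characters.Core Cfsg.Agent.H693.RealD Cfsg.Agent.H693.Defl
  Cfsg.Agent.H693.RG1 Cfsg.Agent.H692.RealAct
  Cfsg.Agent.OddOrderCharacters.PF9.CliffGen Cfsg.Agent.OddOrderCharacters.IndRes
  Cfsg.Agent.OddOrderCharacters.NormalInduced
open scoped ComplexConjugate

universe u

variable {G : Type u} [Group G] {Q : Subgroup G} [hQn : Q.Normal]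

section general

variable {K : Subgroup G} {lam : Q →* ℂˣ} {F : ↥(In lam ⊓ K) →* ℂˣ}
  {A : Type u} [Group A] [Fintype A] {i : A →* G}

/-- The map to the quotient by `Q`. -/
def fi (lam : Q →* ℂˣ) (i : A →* G) : TA lam i →* G ⧸ Q :=
  (QuotientGroup.mk' Q).comp (i.comp (TA lam i).subtype)

theorem fi_apply (t : TA lam i) : fi lam i t = ((i t : G) : G ⧸ Q) := rfl

/-- Characters trivial on `Q` are functions of the image in the quotient. -/
theorem factor {β : TA lam i → ℂ} (hβ : IsIrrCharacter (TA lam i) β) (hker : KerQ lam i β)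
    {t t' : TA lam i} (h : fi lam i t = fi lam i t') : β t = β t' := by
  obtain ⟨β', -, hb⟩ := exists_defl (fi lam i).rangeRestrict (fi lam i).rangeRestrict_surjective
    hβ (fun a ha => by
      have h1 : fi lam i a = 1 := congrArg Subtype.val ha
      rw [fi_apply, QuotientGroup.eq_one_iff] at h1
      exact hker ⟨a, h1⟩)
  rw [hb, hb]
  congr 1
  exact Subtype.ext h

/-- An automorphism of the inertia group. -/
def sT {u : G} (hu : u ∈ In lam) (σ : A ≃* A) (hσ : ∀ a, i (σ a) = u * i a * u⁻¹)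
    (t : TA lam i) : TA lam i :=
  ⟨σ t, by
    show i (σ t) ∈ In lam
    rw [hσ]
    exact (In lam).mul_mem ((In lam).mul_mem hu t.2) ((In lam).inv_mem hu)⟩

/-- The Clifford correspondence commutes with conjugation. -/
theorem Phi_conj (hi : Emb Q K i) (hF : IsExt Q K hi.hQK lam F) {u : G} (hu : u ∈ In lam)
    (σ : A ≃* A) (hσ : ∀ a, i (σ a) = u * i a * u⁻¹) (β : TA lam i → ℂ) (a : A) :
    Phi F i hi β (σ a) = Phi F i hi (fun t => β (sT hu σ hσ t)) a := by
  classical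
  unfold Phi
  rw [indFun_apply, indFun_apply]
  congr 1
  refine (Fintype.sum_equiv σ.toEquiv _ _ fun x => ?_).symm
  have hiff : x⁻¹ * a * x ∈ TA lam i ↔ (σ x)⁻¹ * σ a * σ x ∈ TA lam i := by
    have h1 : (σ x)⁻¹ * σ a * σ x = σ (x⁻¹ * a * x) := by simp
    rw [h1]
    show i (x⁻¹ * a * x) ∈ In lam ↔ i (σ (x⁻¹ * a * x)) ∈ In lam
    rw [hσ]
    constructor
    · intro h
      exact (In lam).mul_mem ((In lam).mul_mem hu h) ((In lam).inv_mem hu)
    · intro h
      have h2 : i (x⁻¹ * a * x) = u⁻¹ * (u * i (x⁻¹ * a * x) * u⁻¹) * u := by group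
      rw [h2]
      exact (In lam).mul_mem ((In lam).mul_mem ((In lam).inv_mem hu) h) hu
  show extendByZero (TA lam i) _ (x⁻¹ * a * x) = extendByZero (TA lam i) _ ((σ x)⁻¹ * σ a * σ x)
  by_cases hx : x⁻¹ * a * x ∈ TA lam i
  · rw [extendByZero_of_mem _ _ hx, extendByZero_of_mem _ _ (hiff.1 hx)]
    have h3 : (⟨(σ x)⁻¹ * σ a * σ x, hiff.1 hx⟩ : TA lam i) =
        sT hu σ hσ ⟨x⁻¹ * a * x, hx⟩ := by
      apply Subtype.ext
      show (σ x)⁻¹ * σ a * σ x = σ (x⁻¹ * a * x)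
      simp
    rw [h3]
    congr 2
    symm
    exact hF.inv u hu _ _ (hσ _)
  · rw [extendByZero_of_notMem _ _ hx, extendByZero_of_notMem _ _ (fun h => hx (hiff.2 h))]

/-- Conjugates of characters of the inertia group. -/
theorem irr_sT {u : G} (hu : u ∈ In lam) (σ : A ≃* A) (hσ : ∀ a, i (σ a) = u * i a * u⁻¹)
    {β : TA lam i → ℂ} (hβ : IsIrrCharacter (TA lam i) β) :
    IsIrrCharacter (TA lam i) (fun t => β (sT hu σ hσ t)) := by
  let e : TA lam i →* TA lam i :=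
    { toFun := sT hu σ hσ
      map_one' := Subtype.ext (map_one σ)
      map_mul' := fun a b => Subtype.ext (map_mul σ _ _) }
  have he : Function.Surjective e := by
    rintro ⟨a, ha⟩
    refine ⟨⟨σ.symm a, ?_⟩, Subtype.ext (σ.apply_symm_apply a)⟩
    show i (σ.symm a) ∈ In lam
    have h1 := hσ (σ.symm a)
    rw [σ.apply_symm_apply] at h1
    have h2 : i (σ.symm a) = u⁻¹ * i a * u := by rw [h1]; group
    rw [h2]
    exact (In lam).mul_mem ((In lam).mul_mem ((In lam).inv_mem hu) ha) hu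
  exact isIrr_comp e he hβ

theorem kerQ_sT {u : G} (hu : u ∈ In lam) (σ : A ≃* A) (hσ : ∀ a, i (σ a) = u * i a * u⁻¹)
    {β : TA lam i → ℂ} (hker : KerQ lam i β) : KerQ lam i (fun t => β (sT hu σ hσ t)) := by
  intro n
  have h1 : σ n ∈ Q.comap i := by
    show i (σ n) ∈ Q
    rw [hσ]
    exact hQn.conj_mem _ n.2 u
  have h2 : sT hu σ hσ 1 = 1 := Subtype.ext (map_one σ)
  show β (sT hu σ hσ ⟨n, _⟩) = β (sT hu σ hσ 1)
  rw [h2]
  exact hker ⟨σ n, h1⟩

/-- Invariance passes to the Clifford correspondent. -/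
theorem hinv_of_Phi (hi : Emb Q K i) (hF : IsExt Q K hi.hQK lam F) {P : Subgroup G}
    (hP : P ≤ In lam) (hσ : ∀ u ∈ P, ∃ σ : A ≃* A, ∀ a, i (σ a) = u * i a * u⁻¹)
    {β : TA lam i → ℂ} (hβ : IsIrrCharacter (TA lam i) β) (hker : KerQ lam i β)
    (hinv : HInv P i (Phi F i hi β)) :
    HInv (P.map (QuotientGroup.mk' Q)) (fi lam i) β := by
  rintro _ ⟨u, hu, rfl⟩ a a' haa
  obtain ⟨σ, hσu⟩ := hσ u hu
  have h1 : Phi F i hi (fun t => β (sT (hP hu) σ hσu t)) = Phi F i hi β := by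
    funext x
    rw [← Phi_conj hi hF (hP hu) σ hσu β x]
    exact hinv u hu x (σ x) (hσu x)
  have h2 := Phi_inj hi hF (irr_sT (hP hu) σ hσu hβ) (kerQ_sT (hP hu) σ hσu hker) hβ hker h1
  rw [← congrFun h2 a]
  apply factor hβ hker
  rw [haa, fi_apply, fi_apply]
  show _ = ((i (σ a) : G) : G ⧸ Q)
  rw [hσu]
  rfl

/-- Invariance of the Clifford correspondent. -/
theorem hinv_Phi (hi : Emb Q K i) (hF : IsExt Q K hi.hQK lam F) {P : Subgroup G}
    (hP : P ≤ In lam) (hσ : ∀ u ∈ P, ∃ σ : A ≃* A, ∀ a, i (σ a) = u * i a * u⁻¹)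
    {β : TA lam i → ℂ} (hinv : HInv (P.map (QuotientGroup.mk' Q)) (fi lam i) β) :
    HInv P i (Phi F i hi β) := by
  intro u hu a a' haa
  obtain ⟨σ, hσu⟩ := hσ u hu
  have h1 : a' = σ a := hi.inj (haa.trans (hσu a).symm)
  rw [h1, Phi_conj hi hF (hP hu) σ hσu β a]
  congr 1
  funext t
  refine hinv _ ⟨u, hu, rfl⟩ _ _ ?_
  rw [fi_apply, fi_apply]
  show ((i (σ t) : G) : G ⧸ Q) = _
  rw [hσu]
  rfl

/-- **Existence of an invariant linear constituent.** -/
theorem exists_lam {p : ℕ} [hp : Fact p.Prime] [Finite G] (hQp : IsPGroup p Q) {P : Subgroup G}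
    (hPp : IsPGroup p P) (hi : Emb Q K i) {χ : A → ℂ} (hχ : IsIrrCharacter A χ)
    (hinv : HInv P i χ) (hd : ¬ p ∣ charDegree χ) :
    ∃ lam : Q →* ℂˣ, P ≤ In lam ∧ Over lam i χ := by
  classical
  have := Fintype.ofFinite G
  have := Fintype.ofFinite Q
  have := Fintype.ofFinite P
  have := Fintype.ofFinite (Q.comap i)
  have hfin := finite_irr (G := Q)
  have := Fintype.ofFinite (IrrCharacter Q)
  -- the restriction to `Q`
  let e : A ≃* i.range := MonoidHom.ofInjective hi.inj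
  let ι : Q →* A := e.symm.toMonoidHom.comp (Subgroup.inclusion (show Q ≤ i.range from
    fun q hq => hi.hQ q hq))
  have hι : ∀ q : Q, i (ι q) = q := by
    intro q
    have h1 : e (ι q) = ⟨q, hi.hQ q q.2⟩ := e.apply_symm_apply _
    exact congrArg Subtype.val h1
  have hχQ : IsCharacter Q (fun q => χ (ι q)) := isCharacter_comp ι (isIrr_isCharacter hχ)
  obtain ⟨c, hc⟩ := isCharacter_iff.1 hχQ
  have hci : ∀ μ : IrrCharacter Q, classInner (fun q => χ (ι q)) (μ : Q → ℂ) = c μ := by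
    intro μ
    conv_lhs => rw [hc]
    exact classInner_sum_nsmul_irr c μ
  have hχinv : ∀ u ∈ P, ∀ q : Q, χ (ι (MulAut.conjNormal u q)) = χ (ι q) := by
    intro u hu q
    apply hinv u hu
    rw [hι, hι]
    simp
  let act : MulAction P (IrrCharacter Q) :=
    { smul := fun u μ => irrSmul (u : G) μ
      one_smul := fun μ => irrSmul_one μ
      mul_smul := fun a b μ => irrSmul_mul (a : G) (b : G) μ }
  have hsm : ∀ (u : P) (μ : IrrCharacter Q), u • μ = irrSmul (u : G) μ := fun _ _ => rfl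
  have hcinv : ∀ (u : P) (μ : IrrCharacter Q), c (u • μ) = c μ := by
    intro u μ
    have h1 := hci (u • μ)
    have h2 : classInner (fun q => χ (ι q)) ((u • μ : IrrCharacter Q) : Q → ℂ) =
        classInner (fun q => χ (ι q)) (μ : Q → ℂ) := by
      rw [classInner_def, classInner_def]
      congr 1
      refine Fintype.sum_equiv (MulAut.conjNormal (u : G)⁻¹ : MulAut Q).toEquiv _ _ fun q => ?_
      rw [hsm, irrSmul_apply]
      congr 1
      exact (hχinv _ (P.inv_mem u.2) q).symm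
    rw [h2, hci] at h1
    exact_mod_cast h1.symm
  have hdinv : ∀ (u : P) (μ : IrrCharacter Q),
      charDegree ((u • μ : IrrCharacter Q) : Q → ℂ) = charDegree (μ : Q → ℂ) := by
    intro u μ
    unfold charDegree
    rw [hsm, irrSmul_apply, map_one]
  have hsum : charDegree χ = ∑ μ : IrrCharacter Q, c μ * charDegree (μ : Q → ℂ) := by
    apply charDegree_of_natCast
    have h1 : χ 1 = χ (ι 1) := by rw [map_one]
    rw [h1]
    have h2 := congrFun hc 1
    rw [h2, Finset.sum_apply]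
    push_cast
    refine Finset.sum_congr rfl fun γ _ => ?_
    rw [Pi.smul_apply, nsmul_eq_mul, charDegree_eq (isIrr_isCharacter γ.2)]
  have hmod := Cfsg.Agent.H596.sum_modEq_sum_fixed hPp
    (fun μ : IrrCharacter Q => c μ * charDegree (μ : Q → ℂ))
    (fun u μ => by simp only [hcinv, hdinv])
  have hex : ∃ μ : IrrCharacter Q, (∀ u : P, u • μ = μ) ∧ ¬ p ∣ c μ * charDegree (μ : Q → ℂ) := by
    by_contra hcon
    push Not at hcon
    apply hd
    rw [hsum]
    refine (Nat.modEq_zero_iff_dvd).1 (hmod.trans ((Nat.modEq_zero_iff_dvd).2 ?_))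
    refine Finset.dvd_sum fun μ hμ => ?_
    simp only [Finset.mem_filter, Finset.mem_univ, true_and] at hμ
    exact hcon μ hμ
  obtain ⟨μ, hμfix, hμp⟩ := hex
  have hμd : charDegree (μ : Q → ℂ) = 1 := by
    obtain ⟨k, hk⟩ := IsPGroup.iff_card.1 hQp
    have h1 := Cfsg.Agent.H593.GlaubermanP.charDegree_dvd μ.2
    rw [hk, Nat.dvd_prime_pow hp.out] at h1
    obtain ⟨l, -, hl⟩ := h1
    rcases Nat.eq_zero_or_pos l with h2 | h2
    · rw [hl, h2, pow_zero]
    · exfalso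
      apply hμp
      rw [hl]
      exact (dvd_pow_self p h2.ne').mul_left _
  obtain ⟨lam, hlam⟩ := Characters.Linear.exists_hom_of_isIrrCharacter μ.2 (by
    rw [charDegree_eq (isIrr_isCharacter μ.2), hμd, Nat.cast_one])
  refine ⟨lam, ?_, ?_⟩
  · intro u hu
    rw [mem_In]
    intro q
    apply Units.ext
    have h1 := congrFun (congrArg Subtype.val (hμfix ⟨u⁻¹, P.inv_mem hu⟩)) q
    rw [hsm, irrSmul_apply, hlam] at h1
    refine Eq.trans ?_ h1
    show ((lam _ : ℂˣ) : ℂ) = ((lam _ : ℂˣ) : ℂ)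
    congr 2
    apply Subtype.ext
    simp
  · rw [over_iff]
    have hπ : Function.Surjective (i.subgroupComap Q) := by
      rintro ⟨q, hq⟩
      obtain ⟨a, ha⟩ := hi.hQ q hq
      exact ⟨⟨a, by show i a ∈ Q; rw [ha]; exact hq⟩, Subtype.ext ha⟩
    have h1 : classInner (res (Q.comap i) χ) (fun n => (lamA lam i n : ℂ)) =
        classInner (fun q => χ (ι q)) (μ : Q → ℂ) := by
      rw [← classInner_comp_surj (i.subgroupComap Q) hπ]
      congr 1
      · funext n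
        rw [res_apply]
        congr 1
        apply hi.inj
        rw [hι]
        rfl
      · funext n
        rw [hlam]
        rfl
    rw [h1, hci]
    intro h2
    have h3 : c μ = 0 := by exact_mod_cast h2
    apply hμp
    rw [h3, zero_mul]
    exact dvd_zero p

end general

section main

variable [Fintype G] {p : ℕ} [hp : Fact p.Prime] (P : Sylow p G) (K : Subgroup G) [hK : K.Normal]

/-- The normalizer. -/
abbrev Nz : Subgroup G := Subgroup.normalizer ((P : Subgroup G) : Set G)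

/-- The subgroup `K ⊓ N` of `N`. -/
abbrev KN : Subgroup (Nz P) := K.subgroupOf (Nz P)

/-- The embedding of `K ⊓ N` in `K`. -/
def jM : KN P K →* K where
  toFun m := ⟨((m : Nz P) : G), m.2⟩
  map_one' := rfl
  map_mul' _ _ := rfl

variable {P K}

theorem mem_Q (hQ : Q = (P : Subgroup G) ⊓ K) {x : G} :
    x ∈ Q ↔ x ∈ (P : Subgroup G) ∧ x ∈ K := by
  rw [hQ]
  exact Iff.rfl

theorem jM_coe (m : KN P K) : ((jM P K m : K) : G) = ((m : Nz P) : G) := rfl

theorem embK (hQ : Q = (P : Subgroup G) ⊓ K) : Emb Q K K.subtype where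
  inj := K.subtype_injective
  hQ := fun q hq => ⟨⟨q, (hQ ▸ hq : q ∈ (P : Subgroup G) ⊓ K).2⟩, rfl⟩
  hK := fun a => a.2
  hQK := hQ ▸ inf_le_right

theorem embM (hQ : Q = (P : Subgroup G) ⊓ K) : Emb Q K (K.subtype.comp (jM P K)) where
  inj := by
    intro a b h
    apply Subtype.ext
    apply Subtype.ext
    exact h
  hQ := fun q hq => by
    have h1 : q ∈ (P : Subgroup G) ⊓ K := hQ ▸ hq
    exact ⟨⟨⟨q, Subgroup.le_normalizer h1.1⟩, h1.2⟩, rfl⟩
  hK := fun a => a.2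
  hQK := hQ ▸ inf_le_right

theorem sigmaK {u : G} (_hu : u ∈ (P : Subgroup G)) :
    ∃ σ : K ≃* K, ∀ a, K.subtype (σ a) = u * K.subtype a * u⁻¹ :=
  ⟨MulAut.conjNormal u, fun _ => rfl⟩

theorem sigmaM {u : G} (hu : u ∈ (P : Subgroup G)) :
    ∃ σ : KN P K ≃* KN P K, ∀ a, (K.subtype.comp (jM P K)) (σ a) =
      u * (K.subtype.comp (jM P K)) a * u⁻¹ :=
  ⟨MulAut.conjNormal (⟨u, Subgroup.le_normalizer hu⟩ : Nz P), fun _ => rfl⟩

theorem isPGroup_Q (hQ : Q = (P : Subgroup G) ⊓ K) : IsPGroup p Q := by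
  have h1 : Q ≤ (P : Subgroup G) := hQ ▸ inf_le_left
  exact P.isPGroup'.to_le h1

theorem not_dvd_relIndex (hQ : Q = (P : Subgroup G) ⊓ K) : ¬ p ∣ Q.relIndex K := by
  have h1 : Nat.card Q * Q.relIndex K = Nat.card K := by
    rw [← Subgroup.relIndex_bot_left, ← Subgroup.relIndex_bot_left]
    exact Subgroup.relIndex_mul_relIndex ⊥ Q K bot_le (hQ ▸ inf_le_right)
  have h2 : Nat.card Q * K.relIndex (P : Subgroup G) = Nat.card (P : Subgroup G) := by
    rw [← Subgroup.relIndex_bot_left, ← Subgroup.relIndex_bot_left,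
      ← Subgroup.inf_relIndex_right K (P : Subgroup G), inf_comm, ← hQ]
    exact Subgroup.relIndex_mul_relIndex ⊥ Q _ bot_le (hQ ▸ inf_le_left)
  have h3 : Nat.card (P : Subgroup G) * (P : Subgroup G).relIndex (K ⊔ (P : Subgroup G)) =
      Nat.card (K ⊔ (P : Subgroup G) : Subgroup G) := by
    rw [← Subgroup.relIndex_bot_left, ← Subgroup.relIndex_bot_left]
    exact Subgroup.relIndex_mul_relIndex ⊥ _ _ bot_le le_sup_right
  have h4 : Nat.card K * K.relIndex (P : Subgroup G) =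
      Nat.card (K ⊔ (P : Subgroup G) : Subgroup G) := by
    have h40 : K.relIndex (K ⊔ (P : Subgroup G)) = K.relIndex (P : Subgroup G) :=
      Subgroup.relIndex_sup_left _ _
    rw [← h40, ← Subgroup.relIndex_bot_left, ← Subgroup.relIndex_bot_left]
    exact Subgroup.relIndex_mul_relIndex ⊥ _ _ bot_le le_sup_left
  have h5 : (P : Subgroup G).relIndex (K ⊔ (P : Subgroup G)) = Q.relIndex K := by
    have h6 : Nat.card (P : Subgroup G) * (P : Subgroup G).relIndex (K ⊔ (P : Subgroup G)) =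
        Nat.card (P : Subgroup G) * Q.relIndex K := by
      rw [h3, ← h4, ← h1, ← h2]
      ring
    exact Nat.eq_of_mul_eq_mul_left Nat.card_pos h6
  rw [← h5]
  intro h
  exact P.not_dvd_index (h.trans (Subgroup.relIndex_dvd_index_of_le le_sup_right))

variable [Fintype K] [Fintype (KN P K)]

/-- The data of the Glauberman correspondence in `G / Q`. -/
theorem dat (hQ : Q = (P : Subgroup G) ⊓ K) {lam : Q →* ℂˣ} (hP : (P : Subgroup G) ≤ In lam) :
    Dat p ((P : Subgroup G).map (QuotientGroup.mk' Q)) (fi lam K.subtype)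
      (jT lam K.subtype (jM P K)) where
  pgroup := P.isPGroup'.map _
  norm := by
    rintro _ ⟨u, hu, rfl⟩ a
    obtain ⟨σ, hσ⟩ := sigmaK (P := P) (K := K) hu
    refine ⟨sT (hP hu) σ hσ a, ?_⟩
    rw [fi_apply, fi_apply]
    show ((K.subtype (σ a) : G) : G ⧸ Q) = _
    rw [hσ]
    rfl
  ndvd := by
    rw [← Subgroup.index_ker]
    have h1 : (fi lam K.subtype).ker = (Q.comap K.subtype).subgroupOf (TA lam K.subtype) := by
      ext t
      rw [MonoidHom.mem_ker, fi_apply, QuotientGroup.eq_one_iff, Subgroup.mem_subgroupOf,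
        Subgroup.mem_comap]
    rw [h1]
    intro h
    have h2 : (Q.comap K.subtype).relIndex (TA lam K.subtype) ∣ (Q.comap K.subtype).index :=
      Subgroup.relIndex_dvd_index_of_le (QA_le_TA K.subtype)
    exact not_dvd_relIndex hQ (h.trans h2)
  fix := by
    intro a
    have hcoe : fi lam K.subtype a = (((a : K) : G) : G ⧸ Q) := rfl
    constructor
    · intro h
      have h1 : ∀ u ∈ (P : Subgroup G), ((u * ((a : K) : G) * u⁻¹ : G) : G ⧸ Q) =
          (((a : K) : G) : G ⧸ Q) := fun u hu => h _ ⟨u, hu, rfl⟩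
      have hN : ((a : K) : G) ∈ Nz P := by
        rw [Subgroup.mem_normalizer_iff]
        intro x
        constructor
        · intro hx
          have h2 := h1 x hx
          rw [eq_comm, QuotientGroup.eq] at h2
          have h3 : ((a : K) : G)⁻¹ * (x * ((a : K) : G) * x⁻¹) ∈ Q := h2
          have h4 := hQn.conj_mem _ h3 ((a : K) : G)
          have h5 : ((a : K) : G) * (((a : K) : G)⁻¹ * (x * ((a : K) : G) * x⁻¹)) *
            ((a : K) : G)⁻¹ = x * (((a : K) : G) * x * ((a : K) : G)⁻¹)⁻¹ := by group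
          rw [h5] at h4
          have h6 : x * (((a : K) : G) * x * ((a : K) : G)⁻¹)⁻¹ ∈ (P : Subgroup G) :=
            ((mem_Q hQ).1 h4).1
          have h7 := (P : Subgroup G).mul_mem ((P : Subgroup G).inv_mem h6) hx
          have h8 : (x * (((a : K) : G) * x * ((a : K) : G)⁻¹)⁻¹)⁻¹ * x =
            ((a : K) : G) * x * ((a : K) : G)⁻¹ := by group
          rwa [h8] at h7
        · intro hx
          have h2 := h1 _ hx
          rw [eq_comm, QuotientGroup.eq] at h2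
          have h3 : ((a : K) : G)⁻¹ * (((a : K) : G) * x * ((a : K) : G)⁻¹ * ((a : K) : G) *
            (((a : K) : G) * x * ((a : K) : G)⁻¹)⁻¹) =
            x * (((a : K) : G) * x * ((a : K) : G)⁻¹)⁻¹ := by group
          rw [h3] at h2
          have h4 : x * (((a : K) : G) * x * ((a : K) : G)⁻¹)⁻¹ ∈ (P : Subgroup G) :=
            ((mem_Q hQ).1 h2).1
          have h5 := (P : Subgroup G).mul_mem h4 hx
          rwa [inv_mul_cancel_right] at h5
      exact ⟨⟨⟨⟨((a : K) : G), hN⟩, (a : K).2⟩, a.2⟩, rfl⟩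
    · rintro ⟨b, hb⟩ _ ⟨u, hu, rfl⟩
      rw [← hb]
      set n : G := (((b : KN P K) : Nz P) : G) with hn
      have hnN : n ∈ Nz P := ((b : KN P K) : Nz P).2
      have hnK : n ∈ K := (b : KN P K).2
      have hcoe' : fi lam K.subtype (jT lam K.subtype (jM P K) b) = ((n : G) : G ⧸ Q) := rfl
      rw [hcoe']
      show ((u * n * u⁻¹ : G) : G ⧸ Q) = _
      rw [eq_comm, QuotientGroup.eq, mem_Q hQ]
      refine ⟨?_, ?_⟩
      · have h1 := (Subgroup.mem_normalizer_iff.1 ((Nz P).inv_mem hnN) u).1 hu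
        rw [inv_inv] at h1
        have h2 : n⁻¹ * (u * n * u⁻¹) = n⁻¹ * u * n * u⁻¹ := by group
        rw [h2]
        exact (P : Subgroup G).mul_mem h1 ((P : Subgroup G).inv_mem hu)
      · exact K.mul_mem (K.inv_mem hnK) (hK.conj_mem n hnK u)

/-- Indices of the inertia groups. -/
theorem index_cong {lam : Q →* ℂˣ} (hP : (P : Subgroup G) ≤ In lam) :
    (TA lam K.subtype).index ≡ (TA lam (K.subtype.comp (jM P K))).index [MOD p] := by
  have h1 : (TA lam K.subtype).index = (In lam).relIndex K := by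
    show ((In lam).comap K.subtype).index = _
    rw [Subgroup.index_comap, Subgroup.range_subtype]
  have h2 : (TA lam (K.subtype.comp (jM P K))).index = (In lam).relIndex (K ⊓ Nz P) := by
    show ((In lam).comap (K.subtype.comp (jM P K))).index = _
    rw [Subgroup.index_comap]
    congr 1
    ext x
    constructor
    · rintro ⟨m, rfl⟩
      exact ⟨m.2, (m : Nz P).2⟩
    · rintro ⟨hx1, hx2⟩
      exact ⟨⟨⟨x, hx2⟩, hx1⟩, rfl⟩
  rw [h1, h2]
  exact SylOrb.relIndex_modEq P K (In lam) hP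

/-- Degrees of the Clifford correspondents. -/
theorem degree_Phi {L : Subgroup G} {lam : Q →* ℂˣ} {F : ↥(In lam ⊓ L) →* ℂˣ}
    {A : Type u} [Group A] [Fintype A] {i : A →* G} (hi : Emb Q L i)
    {β : TA lam i → ℂ} (hβ : IsIrrCharacter (TA lam i) β) :
    charDegree (Phi F i hi β) = (TA lam i).index * charDegree β := by
  apply charDegree_of_natCast
  rw [Phi_one, charDegree_eq (isIrr_isCharacter hβ), Nat.cast_mul]

/-- Congruence of the degrees of the Clifford correspondents. -/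
theorem degCong_Phi (hQ : Q = (P : Subgroup G) ⊓ K) {lam : Q →* ℂˣ}
    (hP : (P : Subgroup G) ≤ In lam) {F : ↥(In lam ⊓ K) →* ℂˣ}
    {β : TA lam K.subtype → ℂ} (hβ : IsIrrCharacter (TA lam K.subtype) β)
    {β' : TA lam (K.subtype.comp (jM P K)) → ℂ}
    (hβ' : IsIrrCharacter (TA lam (K.subtype.comp (jM P K))) β')
    (h : DegCong p β β') :
    DegCong p (Phi F K.subtype (embK hQ) β) (Phi F (K.subtype.comp (jM P K)) (embM hQ) β') := by
  unfold DegCong at h ⊢
  rw [degree_Phi (embK hQ) hβ, degree_Phi (embM hQ) hβ']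
  have h1 : (((TA lam (K.subtype.comp (jM P K))).index : ℕ) : ZMod p) =
      (((TA lam K.subtype).index : ℕ) : ZMod p) :=
    (ZMod.natCast_eq_natCast_iff _ _ p).2 (index_cong hP).symm
  push_cast
  rw [h1]
  rcases h with h | h
  · left
    rw [h]
  · right
    rw [h, mul_neg]

/-- The degrees are simultaneously prime to `p`. -/
theorem not_dvd_of_degCong {A B : Type*} [Group A] [Group B] {χ : A → ℂ} {β : B → ℂ}
    (h : DegCong p χ β) : p ∣ charDegree χ ↔ p ∣ charDegree β := by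
  rw [← ZMod.natCast_eq_zero_iff, ← ZMod.natCast_eq_zero_iff]
  rcases h with h | h
  · rw [h]
  · rw [h, neg_eq_zero]

/-- **Existence.** -/
theorem exists_beta (hQ : Q = (P : Subgroup G) ⊓ K) {θ : K → ℂ} (hθ : IsIrrCharacter K θ)
    (hinv : HInv (P : Subgroup G) K.subtype θ) (hd : ¬ p ∣ charDegree θ) :
    ∃ θ' : KN P K → ℂ, IsIrrCharacter (KN P K) θ' ∧
      HInv (P : Subgroup G) (K.subtype.comp (jM P K)) θ' ∧ ¬ p ∣ charDegree θ' ∧
      Rel p (jM P K) θ θ' ∧ DegCong p θ θ' := by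
  classical
  obtain ⟨lam, hlam, hover⟩ := exists_lam (isPGroup_Q hQ) P.isPGroup' (embK hQ) hθ hinv hd
  have := Fintype.ofFinite (TA lam K.subtype)
  have := Fintype.ofFinite (TA lam (K.subtype.comp (jM P K)))
  obtain ⟨F, hF1, hF2⟩ := exists_ext (isPGroup_Q hQ) (embK hQ).hQK (not_dvd_relIndex hQ) lam
  have hF : IsExt Q K (embK hQ).hQK lam F := ⟨hF1, hF2⟩
  obtain ⟨β, hβ, hker, rfl⟩ := exists_Phi (embK hQ) hF hθ hover
  have hD := dat hQ hlam
  have hinvβ := hinv_of_Phi (embK hQ) hF hlam (fun u hu => sigmaK hu) hβ hker hinv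
  obtain ⟨β', hβ', hker', hrel⟩ := hD.exists_beta hβ hinvβ
  have hkerQ' : KerQ lam (K.subtype.comp (jM P K)) β' := by
    intro n
    apply hker'
    exact (QuotientGroup.eq_one_iff _).2 n.2
  have hdeg := hD.deg hβ hinvβ hβ' hker' hrel
  have hdeg' := degCong_Phi (F := F) hQ hlam hβ hβ' hdeg
  refine ⟨Phi F (K.subtype.comp (jM P K)) (embM hQ) β', irr_Phi (embM hQ) hF hβ' hkerQ',
    ?_, ?_, ?_, hdeg'⟩
  · apply hinv_Phi (embM hQ) hF hlam (fun u hu => sigmaM hu)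
    intro s hs a a' haa
    apply factor hβ' hkerQ'
    rw [haa]
    exact (hD.fix (jT lam K.subtype (jM P K) a)).2 ⟨a, rfl⟩ s hs
  · rw [← not_dvd_of_degCong hdeg']
    exact hd
  · obtain ⟨m, hm, hpm⟩ := hrel
    refine ⟨m, ?_, hpm⟩
    rw [← hm]
    exact inner_Phi (embK hQ) (embM hQ) hF hβ hker hβ' hkerQ'

/-- **Surjectivity.** -/
theorem exists_chi (hQ : Q = (P : Subgroup G) ⊓ K) {θ' : KN P K → ℂ}
    (hθ' : IsIrrCharacter (KN P K) θ')
    (hinv : HInv (P : Subgroup G) (K.subtype.comp (jM P K)) θ') (hd : ¬ p ∣ charDegree θ') :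
    ∃ θ : K → ℂ, IsIrrCharacter K θ ∧ HInv (P : Subgroup G) K.subtype θ ∧ ¬ p ∣ charDegree θ ∧
      Rel p (jM P K) θ θ' := by
  classical
  obtain ⟨lam, hlam, hover⟩ := exists_lam (isPGroup_Q hQ) P.isPGroup' (embM hQ) hθ' hinv hd
  have := Fintype.ofFinite (TA lam K.subtype)
  have := Fintype.ofFinite (TA lam (K.subtype.comp (jM P K)))
  obtain ⟨F, hF1, hF2⟩ := exists_ext (isPGroup_Q hQ) (embK hQ).hQK (not_dvd_relIndex hQ) lam
  have hF : IsExt Q K (embK hQ).hQK lam F := ⟨hF1, hF2⟩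
  obtain ⟨β', hβ', hker', rfl⟩ := exists_Phi (embM hQ) hF hθ' hover
  have hD := dat hQ hlam
  have hkerf : ∀ b, fi lam K.subtype (jT lam K.subtype (jM P K) b) = 1 → β' b = β' 1 := by
    intro b hb
    have hb1 : (((jM P K (b : KN P K) : K) : G) : G ⧸ Q) = 1 := hb
    have hb2 : ((jM P K (b : KN P K) : K) : G) ∈ Q := (QuotientGroup.eq_one_iff _).1 hb1
    exact hker' ⟨b, hb2⟩
  obtain ⟨β, hβ, hinvβ, hrel⟩ := hD.exists_chi hβ' hkerf
  have hker : KerQ lam K.subtype β := by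
    intro n
    exact hinvβ.ker ((QuotientGroup.eq_one_iff _).2 n.2)
  have hdeg := hD.deg hβ hinvβ hβ' hkerf hrel
  have hdeg' := degCong_Phi (F := F) hQ hlam hβ hβ' hdeg
  refine ⟨Phi F K.subtype (embK hQ) β, irr_Phi (embK hQ) hF hβ hker,
    hinv_Phi (embK hQ) hF hlam (fun u hu => sigmaK hu) hinvβ, ?_, ?_⟩
  · rw [not_dvd_of_degCong hdeg']
    exact hd
  · obtain ⟨m, hm, hpm⟩ := hrel
    refine ⟨m, ?_, hpm⟩
    rw [← hm]
    exact inner_Phi (embK hQ) (embM hQ) hF hβ hker hβ' hker'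

/-- A character related to a character over `lam` lies over `lam`. -/
theorem over_of_rel (hQ : Q = (P : Subgroup G) ⊓ K) {θ : K → ℂ}
    (hθ : IsIrrCharacter K θ) {θ' : KN P K → ℂ} (hθ' : IsIrrCharacter (KN P K) θ')
    (hrel : Rel p (jM P K) θ θ') {lam : Q →* ℂˣ}
    (hover : Over lam (K.subtype.comp (jM P K)) θ') : Over lam K.subtype θ := by
  classical
  have := Fintype.ofFinite (Q.comap (K.subtype.comp (jM P K)))
  rw [← over_comp (j := jM P K) (embK hQ) (embM hQ), over_iff]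
  rw [over_iff] at hover
  refine const_trans (Q.comap (K.subtype.comp (jM P K))).subtype
    (isCharacter_comp (jM P K) (isIrr_isCharacter hθ)) hθ'
    (isIrr_isCharacter (Characters.Linear.isIrrCharacter_hom _)) ?_ hover
  obtain ⟨m, hm, hpm⟩ := hrel
  rw [Function.comp_def, hm]
  intro h
  apply hpm
  have : m = 0 := by exact_mod_cast h
  rw [this]
  exact dvd_zero p

/-- **Injectivity.** -/
theorem unique_chi (hQ : Q = (P : Subgroup G) ⊓ K) {θ θ₁ : K → ℂ}
    (hθ : IsIrrCharacter K θ) (hinv : HInv (P : Subgroup G) K.subtype θ)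
    (hθ₁ : IsIrrCharacter K θ₁) (hinv₁ : HInv (P : Subgroup G) K.subtype θ₁)
    {θ' : KN P K → ℂ} (hθ' : IsIrrCharacter (KN P K) θ')
    (hinv' : HInv (P : Subgroup G) (K.subtype.comp (jM P K)) θ') (hd : ¬ p ∣ charDegree θ')
    (hrel : Rel p (jM P K) θ θ') (hrel₁ : Rel p (jM P K) θ₁ θ') : θ = θ₁ := by
  classical
  obtain ⟨lam, hlam, hover⟩ := exists_lam (isPGroup_Q hQ) P.isPGroup' (embM hQ) hθ' hinv' hd
  have := Fintype.ofFinite (TA lam K.subtype)
  have := Fintype.ofFinite (TA lam (K.subtype.comp (jM P K)))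
  obtain ⟨F, hF1, hF2⟩ := exists_ext (isPGroup_Q hQ) (embK hQ).hQK (not_dvd_relIndex hQ) lam
  have hF : IsExt Q K (embK hQ).hQK lam F := ⟨hF1, hF2⟩
  have ho := over_of_rel hQ hθ hθ' hrel hover
  have ho₁ := over_of_rel hQ hθ₁ hθ' hrel₁ hover
  obtain ⟨β', hβ', hker', rfl⟩ := exists_Phi (embM hQ) hF hθ' hover
  obtain ⟨β, hβ, hker, rfl⟩ := exists_Phi (embK hQ) hF hθ ho
  obtain ⟨β₁, hβ₁, hker₁, rfl⟩ := exists_Phi (embK hQ) hF hθ₁ ho₁
  have hD := dat hQ hlam
  have hkerf : ∀ b, fi lam K.subtype (jT lam K.subtype (jM P K) b) = 1 → β' b = β' 1 := by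
    intro b hb
    have hb1 : (((jM P K (b : KN P K) : K) : G) : G ⧸ Q) = 1 := hb
    have hb2 : ((jM P K (b : KN P K) : K) : G) ∈ Q := (QuotientGroup.eq_one_iff _).1 hb1
    exact hker' ⟨b, hb2⟩
  have hI := hinv_of_Phi (embK hQ) hF hlam (fun u hu => sigmaK hu) hβ hker hinv
  have hI₁ := hinv_of_Phi (embK hQ) hF hlam (fun u hu => sigmaK hu) hβ₁ hker₁ hinv₁
  obtain ⟨m, hm, hpm⟩ := hrel
  obtain ⟨m₁, hm₁, hpm₁⟩ := hrel₁
  have e := hD.unique_chi hβ hI hβ₁ hI₁ hβ' hkerf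
    ⟨m, (inner_Phi (embK hQ) (embM hQ) hF hβ hker hβ' hker').symm.trans hm, hpm⟩
    ⟨m₁, (inner_Phi (embK hQ) (embM hQ) hF hβ₁ hker₁ hβ' hker').symm.trans hm₁, hpm₁⟩
  rw [e]

/-- `P`-invariant linear constituents are conjugate under `K ⊓ N`. -/
theorem conj_lam (hQ : Q = (P : Subgroup G) ⊓ K) {θ : K → ℂ} (hθ : IsIrrCharacter K θ)
    {lam₁ lam₂ : Q →* ℂˣ} (h₁ : Over lam₁ K.subtype θ) (h₂ : Over lam₂ K.subtype θ)
    (hP₁ : (P : Subgroup G) ≤ In lam₁) (hP₂ : (P : Subgroup G) ≤ In lam₂) :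
    ∃ n ∈ K ⊓ Nz P, ∀ q : Q, lam₂ q = lam₁ ⟨n * q * n⁻¹, hQn.conj_mem q q.2 n⟩ := by
  classical
  have := Fintype.ofFinite (Q.comap K.subtype)
  rw [over_iff] at h₁ h₂
  obtain ⟨k, hk⟩ := Characters.Clifford.exists_conj_of_constituents (Q.comap K.subtype) hθ
    (Characters.Linear.isIrrCharacter_hom (lamA lam₁ K.subtype))
    (Characters.Linear.isIrrCharacter_hom (lamA lam₂ K.subtype)) h₁ h₂
  have hk' : ∀ q : Q, lam₂ q = lam₁ ⟨(k : G) * q * (k : G)⁻¹, hQn.conj_mem q q.2 k⟩ := by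
    intro q
    have h1 := congrFun hk ⟨⟨q, (embK hQ).hQK q.2⟩, q.2⟩
    exact Units.ext h1
  have hfix : ∀ u ∈ (P : Subgroup G), ((k : G)⁻¹)⁻¹ * u * (k : G)⁻¹ ∈ In lam₁ := by
    intro u hu
    rw [inv_inv, mem_In]
    intro q
    have hq' : (k : G)⁻¹ * q * k ∈ Q := by
      have := hQn.conj_mem q q.2 (k : G)⁻¹
      rwa [inv_inv] at this
    have h1 := mem_In.1 (hP₂ hu) ⟨(k : G)⁻¹ * q * k, hq'⟩
    rw [hk', hk'] at h1
    have h2 : (⟨(k : G) * (⟨u * ((⟨(k : G)⁻¹ * q * k, hq'⟩ : Q) : G) * u⁻¹,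
        hQn.conj_mem _ hq' u⟩ : Q) * (k : G)⁻¹, hQn.conj_mem _ (hQn.conj_mem _ hq' u) k⟩ : Q) =
        ⟨(k : G) * u * (k : G)⁻¹ * q * ((k : G) * u * (k : G)⁻¹)⁻¹,
          hQn.conj_mem q q.2 ((k : G) * u * (k : G)⁻¹)⟩ := by
      apply Subtype.ext
      show (k : G) * (u * ((k : G)⁻¹ * q * k) * u⁻¹) * (k : G)⁻¹ = _
      group
    have h3 : (⟨(k : G) * ((⟨(k : G)⁻¹ * q * k, hq'⟩ : Q) : G) * (k : G)⁻¹,
        hQn.conj_mem _ hq' k⟩ : Q) = q := by
      apply Subtype.ext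
      show (k : G) * ((k : G)⁻¹ * q * k) * (k : G)⁻¹ = _
      group
    rw [h2, h3] at h1
    exact h1
  obtain ⟨a, ha, hka⟩ := SylOrb.exists_normalizing P K (In lam₁) hP₁ (K.inv_mem k.2) hfix
  refine ⟨((k : G)⁻¹ * a)⁻¹, Subgroup.inv_mem _ hka, fun q => ?_⟩
  rw [hk', ← mem_In.1 ((In lam₁).inv_mem ha) ⟨(k : G) * q * (k : G)⁻¹, hQn.conj_mem q q.2 k⟩]
  congr 1
  apply Subtype.ext
  show a⁻¹ * ((k : G) * q * (k : G)⁻¹) * a⁻¹⁻¹ = ((k : G)⁻¹ * a)⁻¹ * q * ((k : G)⁻¹ * a)⁻¹⁻¹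
  group

/-- Conjugate linear characters lie under the same characters. -/
theorem over_conj {lam₁ lam₂ : Q →* ℂˣ} {n : G} (hn : n ∈ K ⊓ Nz P)
    (h : ∀ q : Q, lam₂ q = lam₁ ⟨n * q * n⁻¹, hQn.conj_mem q q.2 n⟩) {θ' : KN P K → ℂ}
    (hθ' : IsIrrCharacter (KN P K) θ') (h₂ : Over lam₂ (K.subtype.comp (jM P K)) θ') :
    Over lam₁ (K.subtype.comp (jM P K)) θ' := by
  classical
  have := Fintype.ofFinite (Q.comap (K.subtype.comp (jM P K)))
  rw [over_iff] at h₂ ⊢
  let n' : KN P K := ⟨⟨n, hn.2⟩, hn.1⟩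
  rw [← classInner_conjFn _ _ _ n', conjFn_res _ (isIrr_isClassFunction hθ')]
  convert h₂ using 2
  funext q
  rw [conjFn_apply]
  congr 1
  exact (h ⟨_, q.2⟩).symm

/-- **Uniqueness.** -/
theorem unique_beta (hQ : Q = (P : Subgroup G) ⊓ K) {θ : K → ℂ}
    (hθ : IsIrrCharacter K θ) (hinv : HInv (P : Subgroup G) K.subtype θ)
    {θ' θ₁' : KN P K → ℂ} (hθ' : IsIrrCharacter (KN P K) θ')
    (hinv' : HInv (P : Subgroup G) (K.subtype.comp (jM P K)) θ') (hd : ¬ p ∣ charDegree θ')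
    (hθ₁' : IsIrrCharacter (KN P K) θ₁')
    (hinv₁' : HInv (P : Subgroup G) (K.subtype.comp (jM P K)) θ₁') (hd₁ : ¬ p ∣ charDegree θ₁')
    (hrel : Rel p (jM P K) θ θ') (hrel₁ : Rel p (jM P K) θ θ₁') : θ' = θ₁' := by
  classical
  obtain ⟨lam, hlam, hover⟩ := exists_lam (isPGroup_Q hQ) P.isPGroup' (embM hQ) hθ' hinv' hd
  obtain ⟨lam₁, hlam₁, hover₁⟩ :=
    exists_lam (isPGroup_Q hQ) P.isPGroup' (embM hQ) hθ₁' hinv₁' hd₁
  have ho := over_of_rel hQ hθ hθ' hrel hover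
  have ho₁ := over_of_rel hQ hθ hθ₁' hrel₁ hover₁
  obtain ⟨n, hn, hnl⟩ := conj_lam hQ hθ ho ho₁ hlam hlam₁
  have hover₁' := over_conj hn hnl hθ₁' hover₁
  have := Fintype.ofFinite (TA lam K.subtype)
  have := Fintype.ofFinite (TA lam (K.subtype.comp (jM P K)))
  obtain ⟨F, hF1, hF2⟩ := exists_ext (isPGroup_Q hQ) (embK hQ).hQK (not_dvd_relIndex hQ) lam
  have hF : IsExt Q K (embK hQ).hQK lam F := ⟨hF1, hF2⟩
  obtain ⟨β', hβ', hker', rfl⟩ := exists_Phi (embM hQ) hF hθ' hover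
  obtain ⟨β₁', hβ₁', hker₁', rfl⟩ := exists_Phi (embM hQ) hF hθ₁' hover₁'
  obtain ⟨β, hβ, hker, rfl⟩ := exists_Phi (embK hQ) hF hθ ho
  have hD := dat hQ hlam
  have hkerf : ∀ b, fi lam K.subtype (jT lam K.subtype (jM P K) b) = 1 → β' b = β' 1 := by
    intro b hb
    have hb1 : (((jM P K (b : KN P K) : K) : G) : G ⧸ Q) = 1 := hb
    have hb2 : ((jM P K (b : KN P K) : K) : G) ∈ Q := (QuotientGroup.eq_one_iff _).1 hb1
    exact hker' ⟨b, hb2⟩
  have hkerf₁ : ∀ b, fi lam K.subtype (jT lam K.subtype (jM P K) b) = 1 → β₁' b = β₁' 1 := by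
    intro b hb
    have hb1 : (((jM P K (b : KN P K) : K) : G) : G ⧸ Q) = 1 := hb
    have hb2 : ((jM P K (b : KN P K) : K) : G) ∈ Q := (QuotientGroup.eq_one_iff _).1 hb1
    exact hker₁' ⟨b, hb2⟩
  have hI := hinv_of_Phi (embK hQ) hF hlam (fun u hu => sigmaK hu) hβ hker hinv
  obtain ⟨m, hm, hpm⟩ := hrel
  obtain ⟨m₁, hm₁, hpm₁⟩ := hrel₁
  have e := hD.unique_beta hβ hI hβ' hkerf hβ₁' hkerf₁
    ⟨m, (inner_Phi (embK hQ) (embM hQ) hF hβ hker hβ' hker').symm.trans hm, hpm⟩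
    ⟨m₁, (inner_Phi (embK hQ) (embM hQ) hF hβ hker hβ₁' hker₁').symm.trans hm₁, hpm₁⟩
  rw [e]

end main

end Cfsg.Agent.H693.RG2
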