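import Mathlib
import Cfsg.Prelude.Def_Blocks
import Cfsg.Agent.Characters.Core
import Cfsg.Agent.S0887
import Cfsg.Agent.H692.RealOver
import Cfsg.Agent.H696.OddIndex
import Cfsg.Agent.H693.RealD
import Cfsg.Agent.H693.RealOver
import Cfsg.Agent.H693.ThmA
import Cfsg.Agent.H693.Defl
import Cfsg.Agent.H693.SylOrb
import Cfsg.Agent.H693.RG1
import Cfsg.Agent.H693.RG2

/-!
# Real characters of `G` and of the normalizer of a Sylow subgroup

`K` normal of odd index in `G`, `P` a Sylow `p`-subgroup with `P ⊓ K` normal in `G`, all real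
irreducible characters of `G` of degree prime to `p`.
-/

set_option autoImplicit false
set_option linter.unusedSectionVars false

namespace Cfsg.Agent.H693.RG3

open Cfsg Cfsg.Agent.Characters.Core Cfsg.Agent.H693.RealD Cfsg.Agent.H693.Defl
  Cfsg.Agent.H693.RG1 Cfsg.Agent.H693.RG2 Cfsg.Agent.H696.OddIndex
  Cfsg.Agent.H693.ThmA
  Cfsg.Agent.OddOrderCharacters.PF9.CliffGen Cfsg.Agent.OddOrderCharacters.IndRes
  Cfsg.Agent.OddOrderCharacters.NormalInduced
open scoped ComplexConjugate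

universe u

section odd

variable {G : Type u} [Group G] [Fintype G] (K : Subgroup G) [hK : K.Normal] [Fintype K]

theorem mult_eq (χ : G → ℂ) (φ : K → ℂ) : mult K χ φ = classInner (res K χ) φ := rfl

theorem mult_conj {χ : G → ℂ} (hχ : IsClassFunction G χ) (φ : K → ℂ) (g : G) :
    mult K χ (conjFn K φ g) = mult K χ φ := by
  rw [mult_eq, mult_eq]
  conv_lhs => rw [← conjFn_res K hχ g]
  exact classInner_conjFn K _ _ g

/-- The degree of the real character over a real one. -/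
theorem degree_eq (hodd : Odd K.index) {φ : K → ℂ} (hφ : IsIrrCharacter K φ)
    (hr : ∀ k, (φ k).im = 0) {χ : G → ℂ} (hχ : IsIrrCharacter G χ) (hχr : ∀ g, (χ g).im = 0)
    (hm : mult K χ φ ≠ 0) : charDegree χ = (inertia K φ).index * charDegree φ := by
  have h1 := (indicator_real K hodd hφ hr ⟨χ, hχ⟩ hχr hm).2
  have h1' : mult K χ φ = 1 := h1
  have h2 := restrict_eq K hχ hφ hm 1
  rw [h1'] at h2
  have h3 : Cfsg.Agent.H696.OddIndex.Phi K φ 1 = Nat.card G * φ 1 := by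
    unfold Cfsg.Agent.H696.OddIndex.Phi
    have h4 : ∀ x : G, φ ⟨x * ((1 : K) : G) * x⁻¹, hK.conj_mem _ (1 : K).2 x⟩ = φ 1 := by
      intro x
      congr 1
      apply Subtype.ext
      simp
    rw [Finset.sum_congr rfl fun x _ => h4 x, Finset.sum_const, Finset.card_univ, nsmul_eq_mul,
      ← Nat.card_eq_fintype_card]
  have h5 : stab K φ = Nat.card (inertia K φ) := by
    unfold stab
    exact Nat.card_congr (Equiv.subtypeEquivRight fun g => mem_inertia'.symm)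
  apply charDegree_of_natCast
  have h6 : χ 1 = χ ((1 : K) : G) := rfl
  rw [h6, h2, h3, h5, charDegree_eq (isIrr_isCharacter hφ), ← (inertia K φ).card_mul_index]
  have h7 : (Nat.card (inertia K φ) : ℂ) ≠ 0 := card_ne_zero_complex
  push_cast
  field_simp

/-- A real character lies over a real one. -/
theorem exists_real_under (hodd : Odd K.index) {χ : G → ℂ} (hχ : IsIrrCharacter G χ)
    (hχr : ∀ g, (χ g).im = 0) :
    ∃ φ : K → ℂ, IsIrrCharacter K φ ∧ (∀ k, (φ k).im = 0) ∧ mult K χ φ ≠ 0 := by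
  classical
  have hfin := finite_irr (G := K)
  have := Fintype.ofFinite (IrrCharacter K)
  have hres : IsCharacter K (res K χ) := isCharacter_res K (isIrr_isCharacter hχ)
  obtain ⟨c, hc⟩ := isCharacter_iff.1 hres
  have hci : ∀ μ : IrrCharacter K, classInner (res K χ) (μ : K → ℂ) = c μ := by
    intro μ
    conv_lhs => rw [hc]
    exact classInner_sum_nsmul_irr c μ
  have hsum : charDegree χ = ∑ μ : IrrCharacter K, c μ * charDegree (μ : K → ℂ) := by
    apply charDegree_of_natCast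
    have h1 : χ 1 = res K χ 1 := rfl
    rw [h1]
    have h2 := congrFun hc 1
    rw [h2, Finset.sum_apply]
    push_cast
    refine Finset.sum_congr rfl fun γ _ => ?_
    rw [Pi.smul_apply, nsmul_eq_mul, charDegree_eq (isIrr_isCharacter γ.2)]
  have hpos : charDegree χ ≠ 0 := by
    intro h
    apply isIrr_apply_one_ne_zero hχ
    rw [charDegree_eq (isIrr_isCharacter hχ), h, Nat.cast_zero]
  obtain ⟨μ₀, hμ₀⟩ : ∃ μ, c μ ≠ 0 := by
    by_contra hcon
    push Not at hcon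
    apply hpos
    rw [hsum]
    exact Finset.sum_eq_zero fun μ _ => by rw [hcon, zero_mul]
  have hdeg : ∀ μ : IrrCharacter K, c μ ≠ 0 →
      charDegree (μ : K → ℂ) = charDegree (μ₀ : K → ℂ) := by
    intro μ hμ
    obtain ⟨g, hg⟩ := Characters.Clifford.exists_conj_of_constituents K hχ μ₀.2 μ.2
      (by have := hci μ₀; rw [res_def] at this; rw [this]; exact_mod_cast hμ₀)
      (by have := hci μ; rw [res_def] at this; rw [this]; exact_mod_cast hμ)
    rw [hg]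
    unfold charDegree
    rw [Function.comp_apply, map_one]
  have hsum2 : charDegree χ = (∑ μ : IrrCharacter K, c μ) * charDegree (μ₀ : K → ℂ) := by
    rw [hsum, Finset.sum_mul]
    refine Finset.sum_congr rfl fun μ _ => ?_
    by_cases h : c μ = 0
    · rw [h, zero_mul, zero_mul]
    · rw [hdeg μ h]
  obtain ⟨-, hdvd⟩ := Cfsg.Agent.S0887.result K χ hχ μ₀ μ₀.2
    (by have := hci μ₀; rw [res_def] at this; rw [this]; exact_mod_cast hμ₀) (charDegree χ)
    (charDegree (μ₀ : K → ℂ)) (charDegree_eq (isIrr_isCharacter hχ))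
    (charDegree_eq (isIrr_isCharacter μ₀.2))
  have hμ0pos : 0 < charDegree (μ₀ : K → ℂ) := by
    rw [Nat.pos_iff_ne_zero]
    intro h
    apply isIrr_apply_one_ne_zero μ₀.2
    rw [charDegree_eq (isIrr_isCharacter μ₀.2), h, Nat.cast_zero]
  rw [hsum2, Nat.mul_div_cancel _ hμ0pos] at hdvd
  obtain ⟨μ, hμr, hμo⟩ := Cfsg.Agent.H692.RealOver.exists_real_of_odd_sum c (by
    intro μ
    have h1 := hci (Cfsg.Agent.H692.RealAct.irrConj μ)
    have h2 : classInner (res K χ) ((Cfsg.Agent.H692.RealAct.irrConj μ : IrrCharacter K) : K → ℂ) =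
        conj (classInner (res K χ) (μ : K → ℂ)) := by
      rw [classInner_def, classInner_def, map_mul, map_inv₀, Complex.conj_natCast, map_sum]
      congr 1
      refine Finset.sum_congr rfl fun g _ => ?_
      rw [map_mul, Cfsg.Agent.H692.RealAct.irrConj_apply]
      congr 1
      exact (Complex.conj_eq_iff_im.2 (hχr g)).symm
    rw [h2, hci, Complex.conj_natCast] at h1
    exact_mod_cast h1.symm) (hodd.of_dvd_nat hdvd)
  refine ⟨μ, μ.2, hμr, ?_⟩
  rw [mult_eq, hci]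
  have : c μ ≠ 0 := by
    intro h
    rw [h] at hμo
    exact absurd hμo (by decide)
  exact_mod_cast this

/-- A real character of degree prime to `p` lies over a real `P`-invariant character of degree prime
to `p`. -/
theorem exists_inv_under {p : ℕ} [hp : Fact p.Prime] (hodd : Odd K.index) {P : Subgroup G}
    (hP : IsPGroup p P) {χ : G → ℂ} (hχ : IsIrrCharacter G χ) (hχr : ∀ g, (χ g).im = 0)
    (hd : ¬ p ∣ charDegree χ) :
    ∃ θ : K → ℂ, IsIrrCharacter K θ ∧ (∀ k, (θ k).im = 0) ∧ (∀ x ∈ P, conjFn K θ x = θ) ∧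
      ¬ p ∣ charDegree θ ∧ mult K χ θ ≠ 0 := by
  obtain ⟨φ, hφ, hφr, hm⟩ := exists_real_under K hodd hχ hχr
  obtain ⟨g, hg⟩ := RealOver.exists_conj_invariant hP K hφ hχ hm hd
  refine ⟨conjFn K φ g, isIrr_conjFn K hφ g, fun k => hφr _, hg, ?_, ?_⟩
  · intro h
    have h1 : charDegree (conjFn K φ g) = charDegree φ := by
      unfold charDegree
      rw [conjFn_apply_one]
    rw [h1] at h
    apply hd
    rw [degree_eq K hodd hφ hφr hχ hχr hm]
    exact h.mul_left _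
  · rw [mult_conj K (isIrr_isClassFunction hχ)]
    exact hm

/-- Uniqueness of the real character over a real one. -/
theorem unique_over (hodd : Odd K.index) {φ : K → ℂ} (hφ : IsIrrCharacter K φ)
    (hr : ∀ k, (φ k).im = 0) {χ χ₁ : G → ℂ} (hχ : IsIrrCharacter G χ)
    (hχr : ∀ g, (χ g).im = 0) (hm : mult K χ φ ≠ 0) (hχ₁ : IsIrrCharacter G χ₁)
    (hχr₁ : ∀ g, (χ₁ g).im = 0) (hm₁ : mult K χ₁ φ ≠ 0) : χ = χ₁ := by
  obtain ⟨χ₀, -, h⟩ := existsUnique_real K hodd hφ hr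
  have h1 := h ⟨χ, hχ⟩ ⟨hχr, hm⟩
  have h2 := h ⟨χ₁, hχ₁⟩ ⟨hχr₁, hm₁⟩
  exact congrArg Subtype.val (h1.trans h2.symm)

end odd

section main

variable {G : Type u} [Group G] [Fintype G] {p : ℕ} [hp : Fact p.Prime] {P : Sylow p G}
  {K : Subgroup G} [hK : K.Normal] [Fintype K] [Fintype (KN P K)]

theorem hinv_iff {θ : K → ℂ} : HInv (P : Subgroup G) K.subtype θ ↔
    ∀ x ∈ (P : Subgroup G), conjFn K θ x = θ := by
  constructor
  · intro h x hx
    funext k
    exact h x hx k _ rfl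
  · intro h s hs a a' haa
    have h1 : a' = ⟨s * a * s⁻¹, hK.conj_mem a a.2 s⟩ := Subtype.ext haa
    rw [h1]
    exact congrFun (h s hs) a

theorem hinv_iff' {θ : KN P K → ℂ} : HInv (P : Subgroup G) (K.subtype.comp (jM P K)) θ ↔
    ∀ x ∈ (P : Subgroup G).subgroupOf (Nz P), conjFn (KN P K) θ x = θ := by
  constructor
  · intro h x hx
    funext k
    exact h x hx k _ rfl
  · intro h s hs a a' haa
    have h1 : a' = ⟨(⟨s, Subgroup.le_normalizer hs⟩ : Nz P) * a *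
        (⟨s, Subgroup.le_normalizer hs⟩ : Nz P)⁻¹,
        (inferInstance : (KN P K).Normal).conj_mem a a.2 _⟩ :=
      Subtype.ext (Subtype.ext haa)
    rw [h1]
    exact congrFun (h ⟨s, Subgroup.le_normalizer hs⟩ hs) a

/-- Conjugates of invariant characters are invariant. -/
theorem hinv_conj {θ : K → ℂ} (h : HInv (P : Subgroup G) K.subtype θ) (n : Nz P) :
    HInv (P : Subgroup G) K.subtype (conjFn K θ n) := by
  rw [hinv_iff] at h ⊢
  intro x hx
  have h1 : (n : G) * x * (n : G)⁻¹ ∈ (P : Subgroup G) :=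
    (Subgroup.mem_normalizer_iff.1 n.2 x).1 hx
  rw [← conjFn_mul]
  have h2 : (n : G) * x = ((n : G) * x * (n : G)⁻¹) * n := by group
  rw [h2, conjFn_mul, h _ h1]

theorem hinv_conj' {θ : KN P K → ℂ} (h : HInv (P : Subgroup G) (K.subtype.comp (jM P K)) θ)
    (n : Nz P) : HInv (P : Subgroup G) (K.subtype.comp (jM P K)) (conjFn (KN P K) θ n) := by
  rw [hinv_iff'] at h ⊢
  intro x hx
  have h1 : n * x * n⁻¹ ∈ (P : Subgroup G).subgroupOf (Nz P) :=
    (Subgroup.mem_normalizer_iff.1 n.2 x).1 hx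
  rw [← conjFn_mul]
  have h2 : n * x = (n * x * n⁻¹) * n := by group
  rw [h2, conjFn_mul, h _ h1]

/-- The relation is compatible with conjugation. -/
theorem rel_conj {θ : K → ℂ} {θ' : KN P K → ℂ} (h : Rel p (jM P K) θ θ') (n : Nz P) :
    Rel p (jM P K) (conjFn K θ n) (conjFn (KN P K) θ' n) := by
  obtain ⟨m, hm, hpm⟩ := h
  refine ⟨m, ?_, hpm⟩
  rw [← hm]
  exact Characters.Clifford.classInner_comp_mulEquiv (MulAut.conjNormal n : MulAut (KN P K))
    (fun b => θ (jM P K b)) θ'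

/-- The relation is compatible with complex conjugation. -/
theorem rel_real {θ : K → ℂ} {θ' : KN P K → ℂ} (h : Rel p (jM P K) θ θ') :
    Rel p (jM P K) (fun k => conj (θ k)) (fun k => conj (θ' k)) := by
  obtain ⟨m, hm, hpm⟩ := h
  refine ⟨m, ?_, hpm⟩
  rw [← Complex.conj_natCast m, ← hm, classInner_def, classInner_def, map_mul, map_inv₀,
    Complex.conj_natCast, map_sum]
  congr 1
  refine Finset.sum_congr rfl fun c _ => ?_
  rw [map_mul]

theorem real_fun {A : Type*} {θ : A → ℂ} (h : ∀ a, (θ a).im = 0) :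
    (fun a => conj (θ a)) = θ := funext fun a => Complex.conj_eq_iff_im.2 (h a)

theorem real_of_fun {A : Type*} {θ : A → ℂ} (h : (fun a => conj (θ a)) = θ) :
    ∀ a, (θ a).im = 0 := fun a => Complex.conj_eq_iff_im.1 (congrFun h a)

theorem charDegree_conj {A : Type*} [Group A] {θ : A → ℂ} (hθ : IsCharacter A θ) :
    charDegree (fun a => conj (θ a)) = charDegree θ := by
  apply charDegree_of_natCast
  rw [charDegree_eq hθ, Complex.conj_natCast]

theorem charDegree_conjFn {A : Type*} [Group A] (L : Subgroup A) [L.Normal] (θ : L → ℂ) (g : A) :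
    charDegree (conjFn L θ g) = charDegree θ := by
  unfold charDegree
  rw [conjFn_apply_one]

/-- `P`-invariant `G`-conjugate characters are `N`-conjugate. -/
theorem conj_of_inv {θ₁ θ₂ : K → ℂ} (h₁ : HInv (P : Subgroup G) K.subtype θ₁)
    (h₂ : HInv (P : Subgroup G) K.subtype θ₂) {g : G} (hg : θ₂ = conjFn K θ₁ g) :
    ∃ n : Nz P, θ₂ = conjFn K θ₁ n := by
  rw [hinv_iff] at h₁ h₂
  have hfix : ∀ u ∈ (P : Subgroup G), (g⁻¹)⁻¹ * u * g⁻¹ ∈ inertia K θ₁ := by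
    intro u hu
    rw [inv_inv, mem_inertia, mul_assoc, conjFn_mul, ← hg, conjFn_mul, h₂ u hu, hg, ← conjFn_mul,
      mul_inv_cancel, conjFn_one]
  obtain ⟨a, ha, hka⟩ := SylOrb.exists_normalizing P ⊤ (inertia K θ₁)
    (fun u hu => h₁ u hu) (Subgroup.mem_top g⁻¹) hfix
  refine ⟨⟨(g⁻¹ * a)⁻¹, Subgroup.inv_mem _ hka.2⟩, ?_⟩
  rw [hg]
  have h3 : (g⁻¹ * a)⁻¹ = a⁻¹ * g := by group
  show _ = conjFn K θ₁ (g⁻¹ * a)⁻¹
  have h4 : conjFn K θ₁ a⁻¹ = θ₁ := (inertia K θ₁).inv_mem ha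
  rw [h3, conjFn_mul, h4]

/-- The data relating a real character of `G` and one of `N`. -/
def T (χ : G → ℂ) (ξ : Nz P → ℂ) : Prop :=
  ∃ (θ : K → ℂ) (θ' : KN P K → ℂ), IsIrrCharacter K θ ∧ IsIrrCharacter (KN P K) θ' ∧
    (∀ k, (θ k).im = 0) ∧ (∀ k, (θ' k).im = 0) ∧ HInv (P : Subgroup G) K.subtype θ ∧
    HInv (P : Subgroup G) (K.subtype.comp (jM P K)) θ' ∧ ¬ p ∣ charDegree θ ∧
    ¬ p ∣ charDegree θ' ∧ Rel p (jM P K) θ θ' ∧ mult K χ θ ≠ 0 ∧ mult (KN P K) ξ θ' ≠ 0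

variable {Q : Subgroup G} [hQn : Q.Normal] [Fintype (Nz P)]

theorem odd' (hodd : Odd K.index) : Odd (KN P K).index := by
  have h1 : (KN P K).index = K.relIndex (Nz P) := rfl
  rw [h1]
  exact hodd.of_dvd_nat (Subgroup.relIndex_dvd_index_of_normal _ _)

/-- **Uniqueness on the side of `N`.** -/
theorem T_unique_right (hodd : Odd K.index) (hQ : Q = (P : Subgroup G) ⊓ K) {χ : G → ℂ}
    (hχ : IsIrrCharacter G χ) {ξ₁ ξ₂ : Nz P → ℂ} (hξ₁ : IsIrrCharacter (Nz P) ξ₁)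
    (hξ₂ : IsIrrCharacter (Nz P) ξ₂) (hr₁ : ∀ n, (ξ₁ n).im = 0) (hr₂ : ∀ n, (ξ₂ n).im = 0)
    (h₁ : T (K := K) χ ξ₁) (h₂ : T (K := K) χ ξ₂) : ξ₁ = ξ₂ := by
  obtain ⟨θ₁, θ₁', hθ₁, hθ₁', hθr₁, hθr₁', hi₁, hi₁', hd₁, hd₁', hrel₁, hm₁, hm₁'⟩ := h₁
  obtain ⟨θ₂, θ₂', hθ₂, hθ₂', hθr₂, hθr₂', hi₂, hi₂', hd₂, hd₂', hrel₂, hm₂, hm₂'⟩ := h₂
  obtain ⟨g, hg⟩ := Characters.Clifford.exists_conj_of_constituents K hχ hθ₁ hθ₂ hm₁ hm₂
  obtain ⟨n, hn⟩ := conj_of_inv hi₁ hi₂ (g := g) hg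
  have h3 := rel_conj hrel₁ n
  rw [← hn] at h3
  have h4 := unique_beta hQ hθ₂ hi₂ (isIrr_conjFn (KN P K) hθ₁' n) (hinv_conj' hi₁' n)
    (by rw [charDegree_conjFn]; exact hd₁') hθ₂' hi₂' hd₂' h3 hrel₂
  apply unique_over (KN P K) (odd' hodd) hθ₂' hθr₂' hξ₁ hr₁ _ hξ₂ hr₂ hm₂'
  rw [← h4, mult_conj _ (isIrr_isClassFunction hξ₁)]
  exact hm₁'

/-- **Uniqueness on the side of `G`.** -/
theorem T_unique_left (hodd : Odd K.index) (hQ : Q = (P : Subgroup G) ⊓ K) {χ₁ χ₂ : G → ℂ}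
    (hχ₁ : IsIrrCharacter G χ₁) (hχ₂ : IsIrrCharacter G χ₂) (hr₁ : ∀ n, (χ₁ n).im = 0)
    (hr₂ : ∀ n, (χ₂ n).im = 0) {ξ : Nz P → ℂ} (hξ : IsIrrCharacter (Nz P) ξ)
    (h₁ : T (K := K) χ₁ ξ) (h₂ : T (K := K) χ₂ ξ) : χ₁ = χ₂ := by
  obtain ⟨θ₁, θ₁', hθ₁, hθ₁', hθr₁, hθr₁', hi₁, hi₁', hd₁, hd₁', hrel₁, hm₁, hm₁'⟩ := h₁
  obtain ⟨θ₂, θ₂', hθ₂, hθ₂', hθr₂, hθr₂', hi₂, hi₂', hd₂, hd₂', hrel₂, hm₂, hm₂'⟩ := h₂
  obtain ⟨n, hn⟩ := Characters.Clifford.exists_conj_of_constituents (KN P K) hξ hθ₁' hθ₂'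
    hm₁' hm₂'
  have hn' : θ₂' = conjFn (KN P K) θ₁' n := hn
  have h3 := rel_conj hrel₁ n
  rw [← hn'] at h3
  have h4 := unique_chi hQ (isIrr_conjFn K hθ₁ n) (hinv_conj hi₁ n) hθ₂ hi₂ hθ₂' hi₂' hd₂' h3
    hrel₂
  apply unique_over K hodd hθ₂ hθr₂ hχ₁ hr₁ _ hχ₂ hr₂ hm₂
  rw [← h4, mult_conj _ (isIrr_isClassFunction hχ₁)]
  exact hm₁

/-- **Surjectivity.** -/
theorem T_exists_left (hodd : Odd K.index) (hQ : Q = (P : Subgroup G) ⊓ K) {ξ : Nz P → ℂ}
    (hξ : IsIrrCharacter (Nz P) ξ) (hr : ∀ n, (ξ n).im = 0) (hd : ¬ p ∣ charDegree ξ) :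
    ∃ χ : G → ℂ, IsIrrCharacter G χ ∧ (∀ g, (χ g).im = 0) ∧ T (K := K) χ ξ := by
  have hPp : IsPGroup p ((P : Subgroup G).subgroupOf (Nz P)) :=
    P.isPGroup'.comap_of_injective _ (Nz P).subtype_injective
  obtain ⟨θ', hθ', hθr', hi', hd', hm'⟩ :=
    exists_inv_under (KN P K) (odd' hodd) hPp hξ hr hd
  rw [← hinv_iff'] at hi'
  obtain ⟨θ, hθ, hi, hdθ, hrel⟩ := exists_chi hQ hθ' hi' hd'
  have hθr : ∀ k, (θ k).im = 0 := by
    apply real_of_fun
    have h1 := rel_real hrel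
    rw [real_fun hθr'] at h1
    exact unique_chi hQ (isIrr_conj hθ) (fun s hs a a' haa => congrArg _ (hi s hs a a' haa)) hθ hi
      hθ' hi' hd' h1 hrel
  obtain ⟨χ, ⟨hχr, hm⟩, -⟩ := existsUnique_real K hodd hθ hθr
  exact ⟨χ, χ.2, hχr, θ, θ', hθ, hθ', hθr, hθr', hi, hi', hdθ, hd', hrel, hm, hm'⟩

/-- Index of an invariant character. -/
theorem not_dvd_index' {θ' : KN P K → ℂ}
    (hi' : HInv (P : Subgroup G) (K.subtype.comp (jM P K)) θ') :
    ¬ p ∣ (inertia (KN P K) θ').index := by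
  rw [hinv_iff'] at hi'
  intro h
  have h1 : (P : Subgroup G).subgroupOf (Nz P) ≤ inertia (KN P K) θ' := fun x hx => hi' x hx
  have h2 := Subgroup.index_dvd_of_le h1
  have h3 : ((P : Subgroup G).subgroupOf (Nz P)).index = (P : Subgroup G).relIndex (Nz P) := rfl
  rw [h3] at h2
  exact P.not_dvd_index ((h.trans h2).trans
    (Subgroup.relIndex_dvd_index_of_le Subgroup.le_normalizer))

/-- **Existence, with the degrees.** -/
theorem T_exists_right (hodd : Odd K.index) (hQ : Q = (P : Subgroup G) ⊓ K) {χ : G → ℂ}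
    (hχ : IsIrrCharacter G χ) (hr : ∀ n, (χ n).im = 0) (hd : ¬ p ∣ charDegree χ) :
    ∃ ξ : Nz P → ℂ, IsIrrCharacter (Nz P) ξ ∧ (∀ g, (ξ g).im = 0) ∧ ¬ p ∣ charDegree ξ ∧
      T (K := K) χ ξ ∧ DegCong p χ ξ := by
  obtain ⟨θ, hθ, hθr, hi, hdθ, hm⟩ := exists_inv_under K hodd P.isPGroup' hχ hr hd
  rw [← hinv_iff] at hi
  obtain ⟨θ', hθ', hi', hd', hrel, hcong⟩ := exists_beta hQ hθ hi hdθ
  have hθr' : ∀ k, (θ' k).im = 0 := by
    apply real_of_fun
    have h1 := rel_real hrel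
    rw [real_fun hθr] at h1
    exact unique_beta hQ hθ hi (isIrr_conj hθ') (fun s hs a a' haa => congrArg _ (hi' s hs a a' haa))
      (by rw [charDegree_conj (isIrr_isCharacter hθ')]; exact hd') hθ' hi' hd' h1 hrel
  obtain ⟨ξ, ⟨hξr, hm'⟩, -⟩ := existsUnique_real (KN P K) (odd' hodd) hθ' hθr'
  have hdeg := degree_eq K hodd hθ hθr hχ hr hm
  have hdeg' := degree_eq (KN P K) (odd' hodd) hθ' hθr' ξ.2 hξr hm'
  have hstab : ∀ n : Nz P, (n : G) ∈ inertia K θ ↔ n ∈ inertia (KN P K) θ' := by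
    intro n
    rw [mem_inertia, mem_inertia]
    have h3 := rel_conj hrel n
    constructor
    · intro h
      rw [h] at h3
      exact unique_beta hQ hθ hi (isIrr_conjFn (KN P K) hθ' n) (hinv_conj' hi' n)
        (by rw [charDegree_conjFn]; exact hd') hθ' hi' hd' h3 hrel
    · intro h
      rw [h] at h3
      exact unique_chi hQ (isIrr_conjFn K hθ n) (hinv_conj hi n) hθ hi hθ' hi' hd' h3 hrel
  have hidx : (inertia (KN P K) θ').index = (inertia K θ).relIndex (Nz P) := by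
    show _ = ((inertia K θ).subgroupOf (Nz P)).index
    congr 1
    ext n
    rw [Subgroup.mem_subgroupOf]
    exact (hstab n).symm
  have hmod := SylOrb.relIndex_modEq P ⊤ (inertia K θ) (fun u hu => hinv_iff.1 hi u hu)
  rw [Subgroup.relIndex_top_right, top_inf_eq, ← hidx] at hmod
  have hidxp := not_dvd_index' hi'
  have hzm : (((inertia (KN P K) θ').index : ℕ) : ZMod p) = ((inertia K θ).index : ZMod p) :=
    (ZMod.natCast_eq_natCast_iff _ _ p).2 hmod.symm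
  refine ⟨ξ, ξ.2, hξr, ?_, ⟨θ, θ', hθ, hθ', hθr, hθr', hi, hi', hdθ, hd', hrel, hm, hm'⟩, ?_⟩
  · rw [hdeg', hp.out.dvd_mul]
    push Not
    exact ⟨hidxp, hd'⟩
  · unfold DegCong at hcong ⊢
    rw [hdeg, hdeg']
    push_cast
    rw [hzm]
    rcases hcong with h | h
    · left
      rw [h]
    · right
      rw [h, mul_neg]

end main

end Cfsg.Agent.H693.RG3
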